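import Cfsg.Agent.H66.G2Two.Rep
import Mathlib.LinearAlgebra.Matrix.Charpoly.Basic
import Mathlib.FieldTheory.IsAlgClosed.Basic

/-!
Eigenvalues in the six-dimensional representation of `G₂` in characteristic two: they are
`a, a⁻¹, b, b⁻¹, c, c⁻¹` with `a * b * c = 1` (owner: helper66).
-/

set_option autoImplicit false

namespace Cfsg.Agent.H66.G2Two

open Matrix Polynomial

variable {K : Type*} [Field K] [CharP K 2]

/-- The multiset of eigenvalues attached to a triple. -/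
def St (a b c : Kˣ) : Multiset K :=
  {(a : K), ((a⁻¹ : Kˣ) : K)} + ({(b : K), ((b⁻¹ : Kˣ) : K)} + {(c : K), ((c⁻¹ : Kˣ) : K)})

theorem exists_first_coord {v : Fin 6 → K} (hv : v ≠ 0) :
    ∃ g ∈ H K, ((g : Matrix (Fin 6) (Fin 6) K) *ᵥ v) 0 ≠ 0 := by
  by_cases h0 : v 0 = 0
  swap
  · exact ⟨1, one_mem _, by simpa using h0⟩
  have key : ∀ r : Fin 12, yVec r 1 v 0 ≠ 0 →
      ∃ g ∈ H K, ((g : Matrix (Fin 6) (Fin 6) K) *ᵥ v) 0 ≠ 0 := fun r hr =>
    ⟨yU r 1, yU_mem r 1, by rwa [val_yU, yMat_mulVec]⟩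
  by_cases h3 : v 3 = 0
  swap
  · exact key 10 (by simpa [yVec, h0] using h3)
  by_cases h4 : v 4 = 0
  swap
  · exact key 11 (by simpa [yVec, h0] using h4)
  by_cases h2 : v 2 = 0
  swap
  · exact key 8 (by simpa [yVec, h0] using h2)
  by_cases h1 : v 1 = 0
  swap
  · exact key 7 (by simpa [yVec, h0] using h1)
  by_cases h5 : v 5 = 0
  swap
  · exact key 9 (by simpa [yVec, h0] using h5)
  exact absurd (_root_.funext fun i => by fin_cases i <;> assumption) hv

theorem exists_to_line [IsAlgClosed K] {v : Fin 6 → K} (hv : v ≠ 0) :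
    ∃ g ∈ H K, ∃ d : K, d ≠ 0 ∧ (g : Matrix (Fin 6) (Fin 6) K) *ᵥ v = d • Pi.single 0 1 := by
  obtain ⟨g, hg, h0⟩ := exists_first_coord hv
  set w := (g : Matrix (Fin 6) (Fin 6) K) *ᵥ v with hw
  set d := w 0 with hd
  set w1 := yVec 3 (w 2 / d) w with hw1
  set w2 := yVec 4 (w1 1 / d) w1 with hw2
  set w3 := yVec 1 (w2 3 / d) w2 with hw3
  set w4 := yVec 0 (w3 4 / d) w3 with hw4
  obtain ⟨s, hs⟩ := IsAlgClosed.exists_pow_nat_eq (w4 5 / d) (n := 2) two_pos
  set w5 := yVec 2 s w4 with hw5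
  refine ⟨yU 2 s * (yU 0 (w3 4 / d) * (yU 1 (w2 3 / d) * (yU 4 (w1 1 / d) * (yU 3 (w 2 / d) * g)))),
    mul_mem (yU_mem _ _) (mul_mem (yU_mem _ _) (mul_mem (yU_mem _ _) (mul_mem (yU_mem _ _)
      (mul_mem (yU_mem _ _) hg)))), d, h0, ?_⟩
  simp only [Units.val_mul, val_yU, ← mulVec_mulVec, ← hw, yMat_mulVec, ← hw1, ← hw2, ← hw3, ← hw4,
    ← hw5]
  have a2 : w1 2 = 0 := by
    simp [hw1, yVec, ← hd, div_mul_cancel₀ _ h0, CharTwo.add_self_eq_zero]
  have a0 : w1 0 = d := by simp [hw1, yVec, ← hd]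
  have b0 : w2 0 = d := by simp [hw2, yVec, a0]
  have b1 : w2 1 = 0 := by
    simp [hw2, yVec, a0, div_mul_cancel₀ _ h0, CharTwo.add_self_eq_zero]
  have b2 : w2 2 = 0 := by simp [hw2, yVec, a2]
  have c0 : w3 0 = d := by simp [hw3, yVec, b0]
  have c1 : w3 1 = 0 := by simp [hw3, yVec, b1]
  have c2 : w3 2 = 0 := by simp [hw3, yVec, b2]
  have c3 : w3 3 = 0 := by
    simp [hw3, yVec, b0, div_mul_cancel₀ _ h0, CharTwo.add_self_eq_zero]
  have d0 : w4 0 = d := by simp [hw4, yVec, c0]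
  have d1 : w4 1 = 0 := by simp [hw4, yVec, c1]
  have d2 : w4 2 = 0 := by simp [hw4, yVec, c2]
  have d3 : w4 3 = 0 := by simp [hw4, yVec, c3]
  have d4 : w4 4 = 0 := by
    simp [hw4, yVec, c0, div_mul_cancel₀ _ h0, CharTwo.add_self_eq_zero]
  funext i
  fin_cases i <;>
    simp [hw5, yVec, d0, d1, d2, d3, d4, hs, div_mul_cancel₀ _ h0, CharTwo.add_self_eq_zero]

theorem line_entries {M : Matrix (Fin 6) (Fin 6) K} (hG : IsG M) (hdet : M.det ≠ 0)
    (h0 : ∀ i, i ≠ 0 → M i 0 = 0) :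
    (∀ j, j ≠ 5 → M 5 j = 0) ∧ M 3 1 = 0 ∧ M 3 2 = 0 ∧ M 4 1 = 0 ∧ M 4 2 = 0 := by
  let e : Fin 6 → Fin 6 → K := fun j => Pi.single j 1
  have hcol : ∀ j, M *ᵥ e j = fun i => M i j := fun j => _root_.funext fun i => by
    simp [e, Matrix.mulVec_single_one]
  have hMe0 : M *ᵥ e 0 = M 0 0 • e 0 := _root_.funext fun i => by
    rw [hcol]
    rcases eq_or_ne i 0 with rfl | hi
    · simp [e]
    · simp [e, hi, h0 i hi]
  have ha : M 0 0 ≠ 0 := fun h => hdet (Matrix.det_eq_zero_of_column_eq_zero 0 fun i => by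
    rcases eq_or_ne i 0 with rfl | hi
    · exact h
    · exact h0 i hi)
  have h5 : ∀ x, M 0 0 * (M *ᵥ x) 5 = x 5 := fun x => by
    have h := hG.1 (e 0) x
    rw [hMe0] at h
    simpa [om, e] using h
  have hsurj : ∀ z, ∃ z', M *ᵥ z' = z :=
    (Matrix.mulVec_surjective_iff_isUnit.2 ((Matrix.isUnit_iff_isUnit_det M).2 hdet.isUnit))
  refine ⟨fun j hj => ?_, ?_⟩
  · have h := h5 (e j)
    rw [hcol] at h
    have : e j 5 = 0 := by simp [e, Ne.symm hj]
    rw [this] at h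
    exact (mul_eq_zero.1 h).resolve_left ha
  have hW : ∀ y : Fin 6 → K, y 3 = 0 → y 4 = 0 → y 5 = 0 →
      (M *ᵥ y) 3 = 0 ∧ (M *ᵥ y) 4 = 0 := by
    intro y y3 y4 y5
    set p := M *ᵥ y with hp
    have p5 : p 5 = 0 := by
      have := h5 y
      rw [y5] at this
      exact (mul_eq_zero.1 this).resolve_left ha
    have hz : ∀ z : Fin 6 → K, z 5 = 0 → om p z = 0 → tri (e 0) p z = 0 := by
      intro z z5 hpz
      obtain ⟨z', rfl⟩ := hsurj z
      have h := h5 z'
      rw [z5, mul_zero] at h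
      have hyz : om y z' = 0 := by rw [← hG.1 y z', ← hp]; exact hpz
      have o1 : om (e 0) y = 0 := by simp [om, e, y5]
      have o3 : om z' (e 0) = 0 := by simp [om, e, ← h]
      have := hG.2 (e 0) y z' o1 hyz o3
      rw [hMe0, ← hp] at this
      have hl : tri (M 0 0 • e 0) p (M *ᵥ z') = M 0 0 * tri (e 0) p (M *ᵥ z') := by
        simp [tri, e]; ring
      rw [hl] at this
      have hr : tri (e 0) y z' = 0 := by simp [tri, e, y3, y4]
      rw [hr] at this
      exact (mul_eq_zero.1 this).resolve_left ha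
    by_contra hne
    rcases eq_or_ne (p 3) 0 with q3 | q3
    · have q4 : p 4 ≠ 0 := fun q => hne ⟨q3, q⟩
      have := hz ![0, p 2 / p 4, 0, 1, 0, 0] rfl (by
        simp [om, p5, mul_div_cancel₀ _ q4, CharTwo.add_self_eq_zero])
      simp [tri, e, q4] at this
    · have := hz ![0, 0, p 1 / p 3, 0, 1, 0] rfl (by
        simp [om, p5, mul_div_cancel₀ _ q3, CharTwo.add_self_eq_zero])
      simp [tri, e, q3] at this
  have w1 := hW (e 1) (by simp [e]) (by simp [e]) (by simp [e])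
  have w2 := hW (e 2) (by simp [e]) (by simp [e]) (by simp [e])
  rw [hcol] at w1 w2
  exact ⟨w1.1, w2.1, w1.2, w2.2⟩

omit [CharP K 2] in
theorem det_block4 {R : Type*} [CommRing R] (A : Matrix (Fin 4) (Fin 4) R) (a : A 2 0 = 0) (b : A 2 1 = 0)
    (c : A 3 0 = 0) (d : A 3 1 = 0) :
    A.det = (A 0 0 * A 1 1 - A 0 1 * A 1 0) * (A 2 2 * A 3 3 - A 2 3 * A 3 2) := by
  simp [Matrix.det_succ_row_zero, Fin.sum_univ_succ, Fin.succAbove, a, b, c, d]
  ring

theorem charpoly_of_line [IsAlgClosed K] {M : Matrix (Fin 6) (Fin 6) K} (hG : IsG M) (hdet : M.det ≠ 0)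
    (h0 : ∀ i, i ≠ 0 → M i 0 = 0) :
    ∃ a b c : Kˣ, a * b * c = 1 ∧ M.charpoly = ((St a b c).map fun x => X - C x).prod := by
  obtain ⟨h5, h31, h32, h41, h42⟩ := line_entries hG hdet h0
  have z10 := h0 1 (by decide); have z20 := h0 2 (by decide); have z30 := h0 3 (by decide)
  have z40 := h0 4 (by decide); have z50 := h0 5 (by decide)
  have z51 := h5 1 (by decide); have z52 := h5 2 (by decide); have z53 := h5 3 (by decide)
  have z54 := h5 4 (by decide)
  let e : Fin 6 → Fin 6 → K := fun j => Pi.single j 1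
  have hcol : ∀ j, M *ᵥ e j = fun i => M i j := fun j => _root_.funext fun i => by
    simp [e, Matrix.mulVec_single_one]
  have hom : ∀ i j, om (fun k => M k i) (fun k => M k j) = om (e i) (e j) := fun i j => by
    have := hG.1 (e i) (e j)
    rwa [hcol, hcol] at this
  have o05 : M 0 0 * M 5 5 = 1 := by
    have := hom 0 5; simpa [om, e, z10, z20, z30, z40, z50] using this
  have o13 : M 1 1 * M 4 3 + M 2 1 * M 3 3 = 0 := by
    have := hom 1 3; simpa [om, e, z51, z53, h31, h41] using this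
  have o14 : M 1 1 * M 4 4 + M 2 1 * M 3 4 = 1 := by
    have := hom 1 4; simpa [om, e, z51, z54, h31, h41] using this
  have o23 : M 1 2 * M 4 3 + M 2 2 * M 3 3 = 1 := by
    have := hom 2 3; simpa [om, e, z52, z53, h32, h42] using this
  have o24 : M 1 2 * M 4 4 + M 2 2 * M 3 4 = 0 := by
    have := hom 2 4; simpa [om, e, z52, z54, h32, h42] using this
  have oT : M 0 0 * (M 3 3 * M 4 4 + M 3 4 * M 4 3) = 1 := by
    have h := hG.2 (e 0) (e 3) (e 4) (by simp [om, e]) (by simp [om, e]) (by simp [om, e])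
    rw [hcol, hcol, hcol] at h
    simp [tri, e, z10, z20, z30, z40, z50] at h
    linear_combination h
  have h2 := two_zero (K := K)
  set S := M 1 1 + M 2 2 with hS
  set P := M 1 1 * M 2 2 + M 1 2 * M 2 1 with hP
  set Q := M 3 3 * M 4 4 + M 3 4 * M 4 3 with hQ
  have e44 : P * M 4 4 = M 2 2 := by
    linear_combination M 2 2 * o14 + M 2 1 * o24 - (M 2 2 * M 2 1 * M 3 4) * h2
  have e33 : P * M 3 3 = M 1 1 := by
    linear_combination M 1 2 * o13 + M 1 1 * o23 - (M 1 1 * M 1 2 * M 4 3) * h2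
  have e43 : P * M 4 3 = M 2 1 := by
    linear_combination M 2 2 * o13 + M 2 1 * o23 - (M 2 1 * M 2 2 * M 3 3) * h2
  have e34 : P * M 3 4 = M 1 2 := by
    linear_combination M 1 2 * o14 + M 1 1 * o24 - (M 1 1 * M 1 2 * M 4 4) * h2
  have hPQ : P * Q = 1 := by
    have hP0 : P ≠ 0 := fun h => by
      rw [h, zero_mul] at e44 e33 e43 e34
      rw [← e33, ← e43, zero_mul, zero_mul, add_zero] at o13
      rw [← e34, ← e44, zero_mul, zero_mul, add_zero] at o24
      rw [← e33, ← e43, zero_mul, zero_mul, add_zero] at o14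
      exact zero_ne_one o14
    refine mul_left_cancel₀ hP0 ?_
    rw [mul_one, hQ]
    linear_combination (P * M 4 4) * e33 + M 1 1 * e44 + (P * M 4 3) * e34 + M 1 2 * e43 - hP
  have hA : P = M 0 0 := by linear_combination M 0 0 * hPQ - P * oT
  have hP0 : P ≠ 0 := left_ne_zero_of_mul_eq_one hPQ
  obtain ⟨u, hu⟩ := IsAlgClosed.exists_root (C (1 : K) * X ^ 2 + C S * X + C P)
    (by rw [Polynomial.degree_quadratic one_ne_zero]; decide)
  simp [Polynomial.IsRoot.def] at hu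
  set v := S + u with hv
  have huv : u * v = P := by linear_combination hu - P * h2
  have hu0 : u ≠ 0 := left_ne_zero_of_mul (huv ▸ hP0)
  have hv0 : v ≠ 0 := right_ne_zero_of_mul (huv ▸ hP0)
  let a : Kˣ := Units.mk0 u hu0
  let b : Kˣ := Units.mk0 v hv0
  refine ⟨a * b, a⁻¹, b⁻¹, ?_, ?_⟩
  · rw [mul_assoc, ← _root_.mul_inv_rev, mul_comm b a, mul_inv_cancel]
  have hS' : M 3 3 + M 4 4 = u⁻¹ + v⁻¹ := by
    refine mul_left_cancel₀ hP0 ?_
    rw [mul_add, e33, e44, ← hS, mul_add, ← huv, mul_assoc u v v⁻¹, mul_inv_cancel₀ hv0, mul_one,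
      mul_comm u v, mul_assoc, mul_inv_cancel₀ hu0, mul_one]
    linear_combination -hv + -u * h2
  have hQ' : Q = u⁻¹ * v⁻¹ := by
    rw [← mul_inv, huv]
    exact eq_inv_of_mul_eq_one_right hPQ
  have hab : M 0 0 = u * v := by rw [huv, hA]
  have h55 : M 5 5 = (u * v)⁻¹ := eq_inv_of_mul_eq_one_right (hab ▸ o05)
  have hdet2 : M.charpoly = (X - C (M 0 0)) * ((X - C (M 5 5)) *
      (((X - C (M 1 1)) * (X - C (M 2 2)) - C (M 1 2) * C (M 2 1)) *
        ((X - C (M 3 3)) * (X - C (M 4 4)) - C (M 3 4) * C (M 4 3)))) := by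
    unfold Matrix.charpoly
    rw [Matrix.det_succ_column_zero, Finset.sum_eq_single (0 : Fin 6)
      (fun i _ hi => by simp [Matrix.charmatrix_apply, hi, h0 i hi]) (by simp)]
    rw [Matrix.det_succ_row _ (Fin.last 4), Finset.sum_eq_single (Fin.last 4)
      (fun i _ hi => by
        have hi5 : i.succ ≠ 5 := fun h => hi (Fin.succ_injective _ h)
        have hne : (Fin.last 4).succ ≠ i.succ := fun h => hi (Fin.succ_injective _ h).symm
        simp [Matrix.charmatrix_apply, h5 i.succ hi5, hi5.symm]) (by simp)]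
    rw [det_block4 _ (by simp [Matrix.charmatrix_apply, h31, Fin.succAbove])
      (by simp [Matrix.charmatrix_apply, h32, Fin.succAbove])
      (by simp [Matrix.charmatrix_apply, h41, Fin.succAbove])
      (by simp [Matrix.charmatrix_apply, h42, Fin.succAbove])]
    simp [Matrix.charmatrix_apply, Fin.succAbove]
    ring_nf
    simp
  have q1 : (X - C (M 1 1)) * (X - C (M 2 2)) - C (M 1 2) * C (M 2 1) = (X - C u) * (X - C v) := by
    have s1 : C (M 1 1) + C (M 2 2) = C u + C v := by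
      rw [← C_add, ← C_add, ← hS, hv]; congr 1; linear_combination -u * h2
    have p1 : C (M 1 1) * C (M 2 2) - C (M 1 2) * C (M 2 1) = C u * C v := by
      rw [← C_mul, ← C_mul, ← C_mul, ← C_sub, huv, hP]
      congr 1; linear_combination -(M 1 2 * M 2 1) * h2
    linear_combination p1 - X * s1
  have q2 : (X - C (M 3 3)) * (X - C (M 4 4)) - C (M 3 4) * C (M 4 3) =
      (X - C u⁻¹) * (X - C v⁻¹) := by
    have s1 : C (M 3 3) + C (M 4 4) = C u⁻¹ + C v⁻¹ := by rw [← C_add, ← C_add, hS']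
    have p1 : C (M 3 3) * C (M 4 4) - C (M 3 4) * C (M 4 3) = C u⁻¹ * C v⁻¹ := by
      rw [← C_mul, ← C_mul, ← C_mul, ← C_sub, ← hQ', hQ]
      congr 1; linear_combination -(M 3 4 * M 4 3) * h2
    linear_combination p1 - X * s1
  rw [hdet2, q1, q2, hab, h55]
  simp [St, a, b]
  ring

/-- Eigenvalues of an element of the six-dimensional group over an algebraically closed field. -/
theorem exists_eigen [IsAlgClosed K] {g : GL (Fin 6) K} (hg : g ∈ H K) :
    ∃ a b c : Kˣ, a * b * c = 1 ∧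
      (g : Matrix (Fin 6) (Fin 6) K).charpoly = ((St a b c).map fun x => X - C x).prod := by
  obtain ⟨l, hl⟩ := IsAlgClosed.exists_root (g : Matrix (Fin 6) (Fin 6) K).charpoly
    (by rw [Matrix.charpoly_degree_eq_dim]; decide)
  have hl' : ((Matrix.scalar (Fin 6) l) - g.val).det = 0 := by
    rw [← Matrix.eval_charpoly]; exact hl
  obtain ⟨v, hv, hgv⟩ := Matrix.exists_mulVec_eq_zero_iff.2 hl'
  have hgv' : (g : Matrix (Fin 6) (Fin 6) K) *ᵥ v = l • v := by
    rw [Matrix.sub_mulVec, sub_eq_zero] at hgv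
    rw [← hgv]
    simp [Matrix.scalar_apply]
  obtain ⟨h, hh, d, hd, hhv⟩ := exists_to_line hv
  set g' := h * g * h⁻¹ with hg'
  have hcol : ∀ i, i ≠ 0 → (g' : Matrix (Fin 6) (Fin 6) K) i 0 = 0 := by
    intro i hi
    have hinv : (h⁻¹ : GL (Fin 6) K).val *ᵥ (d • Pi.single 0 1) = v := by
      rw [← hhv, mulVec_mulVec, ← Units.val_mul, inv_mul_cancel]; simp
    have e1 : (g' : Matrix (Fin 6) (Fin 6) K) *ᵥ (d • Pi.single 0 1) = l • (d • Pi.single 0 1) := by
      rw [hg', Units.val_mul, Units.val_mul, ← mulVec_mulVec, ← mulVec_mulVec, hinv, hgv',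
        mulVec_smul, hhv]
    have e2 := congrFun e1 i
    simpa [Matrix.mulVec_smul, Matrix.mulVec_single_one, hi, hd] using e2
  obtain ⟨a, b, c, habc, hcp⟩ := charpoly_of_line (isG_of_mem (mul_mem (mul_mem hh hg) (inv_mem hh)))
    ((Matrix.isUnit_iff_isUnit_det _).1 g'.isUnit).ne_zero hcol
  refine ⟨a, b, c, habc, ?_⟩
  rw [← hcp, Units.val_mul, Units.val_mul]
  rw [Matrix.coe_units_inv, Matrix.charpoly_units_conj]

end Cfsg.Agent.H66.G2Two
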