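import Cfsg.Agent.H66.G2Two.Spectrum
import Mathlib.RingTheory.RootsOfUnity.AlgebraicallyClosed

/-!
Elements of `G₂(2^α)` having the admissible exponents as orders (owner: helper66).
-/

set_option autoImplicit false
set_option linter.style.haveILetI false

namespace Cfsg.Agent.H66.G2Two

open Polynomial
open scoped Matrix
open Cfsg.Lie (chevG2)

section
variable {F : Type*} [Field F] [CharP F 2]

theorem mp_yMat_one (r : Fin 12) : yMat r (1 : F) = mp F (1 + cM r 1 + cM r 2) := by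
  simp [yMat, mp_add, mp_one]

theorem orderOf_word {g : ↥(H F)} {M : M6} (hg : g.1.val = mp F M) {n : ℕ} :
    g ^ n = 1 ↔ M ^ n = 1 := by
  constructor <;> intro h
  · apply mp_injective (K := F)
    rw [mp_pow, mp_one, ← hg, ← Units.val_pow_eq_pow_val, ← SubgroupClass.coe_pow, h]
    rfl
  · refine Subtype.ext (Units.ext ?_)
    rw [SubgroupClass.coe_pow, Units.val_pow_eq_pow_val, hg, ← mp_pow, h, mp_one]
    rfl

/-- The word of order eight. -/
def w8 : ↥(H F) := ⟨yU 0 1 * yU 8 1, mul_mem (yU_mem _ _) (yU_mem _ _)⟩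

/-- The word of order twelve. -/
def w12 : ↥(H F) := ⟨yU 0 1 * yU 2 1 * yU 9 1, mul_mem (mul_mem (yU_mem _ _) (yU_mem _ _)) (yU_mem _ _)⟩

/-- A root element over the prime field. -/
def y1 (r : Fin 12) : M6 := 1 + cM r 1 + cM r 2

theorem orderOf_w8 : orderOf (w8 : ↥(H F)) = 8 := by
  have hg : (w8 : ↥(H F)).1.val = mp F (y1 0 * y1 8) := by
    rw [mp_mul]; simp only [w8, Units.val_mul, val_yU, mp_yMat_one, y1]
  haveI : Fact (Nat.Prime 2) := ⟨Nat.prime_two⟩
  refine orderOf_eq_prime_pow (p := 2) (n := 2) ?_ ?_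
  · rw [orderOf_word hg]; decide +kernel
  · rw [orderOf_word hg]; decide +kernel

theorem orderOf_w12 : orderOf (w12 : ↥(H F)) = 12 := by
  have hg : (w12 : ↥(H F)).1.val = mp F (y1 0 * y1 2 * y1 9) := by
    rw [mp_mul, mp_mul]; simp only [w12, Units.val_mul, val_yU, mp_yMat_one, y1]
  have h12 : (w12 : ↥(H F)) ^ 12 = 1 := by rw [orderOf_word hg]; decide +kernel
  have h6 : (w12 : ↥(H F)) ^ 6 ≠ 1 := by rw [ne_eq, orderOf_word hg]; decide +kernel
  have h4 : (w12 : ↥(H F)) ^ 4 ≠ 1 := by rw [ne_eq, orderOf_word hg]; decide +kernel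
  have hd := orderOf_dvd_of_pow_eq_one h12
  rw [ne_eq, ← orderOf_dvd_iff_pow_eq_one] at h6 h4
  have hm := Nat.le_of_dvd (by norm_num) hd
  interval_cases h : orderOf (w12 : ↥(H F)) <;> simp_all (config := {decide := true})

/-- The element with prescribed characteristic polynomial. -/
def secU (u v : F) : ↥(H F) :=
  ⟨yU 7 u * (yU 7 1 * yU 4 1 * yU 7 1) * yU 6 v * (yU 6 1 * yU 5 1 * yU 6 1),
    mul_mem (mul_mem (mul_mem (yU_mem _ _) (mul_mem (mul_mem (yU_mem _ _) (yU_mem _ _)) (yU_mem _ _)))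
      (yU_mem _ _)) (mul_mem (mul_mem (yU_mem _ _) (yU_mem _ _)) (yU_mem _ _))⟩

theorem val_secU (u v : F) : (secU u v).1.val =
    !![u, v, 1, 0, 0, 0; 1, 0, 0, 0, 0, 0; 0, u ^ 2, 0, v, 1, 0; 0, 1, 0, 0, 0, 0;
       0, 0, 0, u, 0, 1; 0, 0, 0, 1, 0, 0] := by
  have n7 : y1 7 * y1 4 * y1 7 = ofEnt [(0, 1), (1, 0), (2, 3), (3, 2), (4, 5), (5, 4)] := by
    decide +kernel
  have n6 : y1 6 * y1 5 * y1 6 = ofEnt [(0, 0), (1, 2), (2, 1), (3, 4), (4, 3), (5, 5)] := by
    decide +kernel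
  have e7 : yMat 7 (1 : F) * yMat 4 1 * yMat 7 1 =
      mp F (ofEnt [(0, 1), (1, 0), (2, 3), (3, 2), (4, 5), (5, 4)]) := by
    rw [← n7, mp_mul, mp_mul]; simp only [mp_yMat_one, y1]
  have e6 : yMat 6 (1 : F) * yMat 5 1 * yMat 6 1 =
      mp F (ofEnt [(0, 0), (1, 2), (2, 1), (3, 4), (4, 3), (5, 5)]) := by
    rw [← n6, mp_mul, mp_mul]; simp only [mp_yMat_one, y1]
  simp only [secU, Units.val_mul, val_yU, e7, e6]
  have p7 : ∀ x : Fin 6 → F, mp F (ofEnt [(0, 1), (1, 0), (2, 3), (3, 2), (4, 5), (5, 4)]) *ᵥ x =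
      ![x 1, x 0, x 3, x 2, x 5, x 4] := fun x => by
    funext i
    fin_cases i <;> simp [mp, iota, ofEnt, Matrix.mulVec, dotProduct, Fin.sum_univ_six]
  have p6 : ∀ x : Fin 6 → F, mp F (ofEnt [(0, 0), (1, 2), (2, 1), (3, 4), (4, 3), (5, 5)]) *ᵥ x =
      ![x 0, x 2, x 1, x 4, x 3, x 5] := fun x => by
    funext i
    fin_cases i <;> simp [mp, iota, ofEnt, Matrix.mulVec, dotProduct, Fin.sum_univ_six]
  refine Matrix.ext_iff_mulVec.2 fun x => ?_
  simp only [← Matrix.mulVec_mulVec, yMat_mulVec, p7, p6]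
  funext i
  fin_cases i <;> simp [yVec, Matrix.mulVec, dotProduct, Fin.sum_univ_six] <;> ring

set_option maxHeartbeats 4000000 in
theorem charpoly_secU (u v : F) : (secU u v).1.val.charpoly =
    X ^ 6 + C u * X ^ 5 + C v * X ^ 4 + C (u ^ 2) * X ^ 3 + C v * X ^ 2 + C u * X + 1 := by
  rw [val_secU]
  have h2 : (2 : F[X]) = 0 := by
    rw [show (2 : F[X]) = C (2 : F) from (map_ofNat C 2).symm, two_zero, map_zero]
  unfold Matrix.charpoly
  simp [Matrix.charmatrix_apply, Matrix.det_succ_row_zero, Fin.sum_univ_succ, Fin.succAbove]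
  grind

/-- The element with eigenvalues `1, ζ, ζ⁻¹`. -/
def pU (t : F) : ↥(H F) := ⟨yU 11 t * yU 0 1, mul_mem (yU_mem _ _) (yU_mem _ _)⟩

/-- An involution commuting with `pU`. -/
def iU : ↥(H F) := ⟨yU 7 1, yU_mem _ _⟩

theorem val_pU (t : F) : (pU t).1.val =
    !![1 + t, 0, 0, 0, t, 0; 0, 1 + t, 0, 0, 0, t; 0, 0, 1, 0, 0, 0; 0, 0, 0, 1, 0, 0;
       1, 0, 0, 0, 1, 0; 0, 1, 0, 0, 0, 1] := by
  refine Matrix.ext_iff_mulVec.2 fun x => ?_
  simp only [pU, Units.val_mul, val_yU, ← Matrix.mulVec_mulVec, yMat_mulVec]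
  funext i
  fin_cases i <;> simp [yVec, Matrix.mulVec, dotProduct, Fin.sum_univ_six] <;> ring

theorem iU_ne_one : (iU : ↥(H F)) ≠ 1 := fun h => by
  have := congrArg (fun g : ↥(H F) => (g.1.val *ᵥ Pi.single 1 1) 0) h
  simp [iU, val_yU, yMat, cM, ofEnt, ent1, ent2, mp, iota] at this

theorem iU_sq : (iU : ↥(H F)) ^ 2 = 1 :=
  Subtype.ext (Units.ext (by simp only [iU, SubgroupClass.coe_pow, Units.val_pow_eq_pow_val, val_yU, sq]
                             exact yMat_mul_self _ _))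

theorem pU_comm (t : F) : Commute (pU t) (iU : ↥(H F)) := by
  refine Subtype.ext (Units.ext (Matrix.ext_iff_mulVec.2 fun x => ?_))
  simp only [pU, iU, Subgroup.coe_mul, Units.val_mul, val_yU, ← Matrix.mulVec_mulVec, yMat_mulVec]
  funext i
  fin_cases i <;> simp [yVec] <;> ring

theorem cubic_pU (t : F) :
    (pU t).1.val ^ 3 + (t + 1) • (pU t).1.val ^ 2 + (t + 1) • (pU t).1.val + 1 = 0 := by
  have h2 := two_zero (K := F)
  have hv : ∀ x : Fin 6 → F, (pU t).1.val *ᵥ x =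
      ![(1 + t) * x 0 + t * x 4, (1 + t) * x 1 + t * x 5, x 2, x 3, x 0 + x 4, x 1 + x 5] := fun x => by
    rw [val_pU]
    funext i
    fin_cases i <;> simp [Matrix.mulVec, dotProduct, Fin.sum_univ_six]
  refine Matrix.ext_iff_mulVec.2 fun x => ?_
  simp only [Matrix.add_mulVec, Matrix.smul_mulVec, pow_three, sq, ← Matrix.mulVec_mulVec, hv,
    Matrix.one_mulVec, Matrix.zero_mulVec]
  funext i
  fin_cases i <;> simp <;> grind

end

theorem mem_range_of_pow {F K : Type*} [Field F] [Fintype F] [Field K] [Algebra F K] {x : K}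
    (h : x ^ Fintype.card F = x) : ∃ y : F, algebraMap F K y = x := by
  classical
  have h1 : 1 < Fintype.card F := Fintype.one_lt_card
  set P : K[X] := X ^ Fintype.card F - X with hP
  have hP0 : P ≠ 0 := FiniteField.X_pow_card_sub_X_ne_zero K h1
  have hsub : Finset.univ.image (algebraMap F K) ⊆ P.roots.toFinset := by
    intro y hy
    obtain ⟨z, -, rfl⟩ := Finset.mem_image.1 hy
    rw [Multiset.mem_toFinset, Polynomial.mem_roots hP0]
    simp [hP, ← map_pow, FiniteField.pow_card]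
  have heq := Finset.eq_of_subset_of_card_le hsub <| by
    rw [Finset.card_image_of_injective _ (algebraMap F K).injective, Finset.card_univ]
    exact ((Multiset.toFinset_card_le _).trans (Polynomial.card_roots' P)).trans_eq
      (FiniteField.X_pow_card_sub_X_natDegree_eq K h1)
  have hx : x ∈ P.roots.toFinset := by
    rw [Multiset.mem_toFinset, Polynomial.mem_roots hP0]
    simp [hP, h]
  rw [← heq] at hx
  obtain ⟨y, -, hy⟩ := Finset.mem_image.1 hx
  exact ⟨y, hy⟩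

section
variable {K : Type*} [Field K] [CharP K 2]

theorem prod_St (a b c : Kˣ) (h : a * b * c = 1) :
    ((St a b c).map fun x => X - C x).prod =
      X ^ 6 + C (((a : K) + ((a⁻¹ : Kˣ) : K)) + ((b : K) + ((b⁻¹ : Kˣ) : K)) + ((c : K) + ((c⁻¹ : Kˣ) : K))) * X ^ 5
      + C (1 + ((a : K) + ((a⁻¹ : Kˣ) : K)) * ((b : K) + ((b⁻¹ : Kˣ) : K))
          + ((a : K) + ((a⁻¹ : Kˣ) : K)) * ((c : K) + ((c⁻¹ : Kˣ) : K))
          + ((b : K) + ((b⁻¹ : Kˣ) : K)) * ((c : K) + ((c⁻¹ : Kˣ) : K))) * X ^ 4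
      + C ((((a : K) + ((a⁻¹ : Kˣ) : K)) + ((b : K) + ((b⁻¹ : Kˣ) : K)) + ((c : K) + ((c⁻¹ : Kˣ) : K))) ^ 2) * X ^ 3
      + C (1 + ((a : K) + ((a⁻¹ : Kˣ) : K)) * ((b : K) + ((b⁻¹ : Kˣ) : K))
          + ((a : K) + ((a⁻¹ : Kˣ) : K)) * ((c : K) + ((c⁻¹ : Kˣ) : K))
          + ((b : K) + ((b⁻¹ : Kˣ) : K)) * ((c : K) + ((c⁻¹ : Kˣ) : K))) * X ^ 2
      + C (((a : K) + ((a⁻¹ : Kˣ) : K)) + ((b : K) + ((b⁻¹ : Kˣ) : K)) + ((c : K) + ((c⁻¹ : Kˣ) : K))) * X + 1 := by
  have hq : ∀ x : Kˣ, (X - C (x : K)) * (X - C ((x⁻¹ : Kˣ) : K)) =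
      X ^ 2 + C ((x : K) + ((x⁻¹ : Kˣ) : K)) * X + 1 := by
    intro x
    have h2 : (2 : K[X]) = 0 := by
      rw [show (2 : K[X]) = C (2 : K) from (map_ofNat C 2).symm, two_zero, map_zero]
    have e : C (x : K) * C ((x⁻¹ : Kˣ) : K) = 1 := by rw [← C_mul, Units.mul_inv, map_one]
    rw [C_add]
    linear_combination e - (C (x : K) + C ((x⁻¹ : Kˣ) : K)) * X * h2
  have habc : ((a : K) + ((a⁻¹ : Kˣ) : K)) * ((b : K) + ((b⁻¹ : Kˣ) : K)) * ((c : K) + ((c⁻¹ : Kˣ) : K)) =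
      ((a : K) + ((a⁻¹ : Kˣ) : K)) ^ 2 + ((b : K) + ((b⁻¹ : Kˣ) : K)) ^ 2
        + ((c : K) + ((c⁻¹ : Kˣ) : K)) ^ 2 - 4 := by
    obtain rfl : c = (a * b)⁻¹ := eq_inv_of_mul_eq_one_right h
    simp only [Units.val_inv_eq_inv_val, Units.val_mul]
    have := a.ne_zero; have := b.ne_zero
    field_simp
    ring
  simp only [St, Multiset.map_add, Multiset.prod_add, Multiset.insert_eq_cons, Multiset.map_cons,
    Multiset.map_singleton, Multiset.prod_cons, Multiset.prod_singleton, hq]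
  generalize (a : K) + ((a⁻¹ : Kˣ) : K) = A at *
  generalize (b : K) + ((b⁻¹ : Kˣ) : K) = B at *
  generalize (c : K) + ((c⁻¹ : Kˣ) : K) = D at *
  have h2 : (2 : K[X]) = 0 := by
    rw [show (2 : K[X]) = C (2 : K) from (map_ofNat C 2).symm, two_zero, map_zero]
  have h3 := congrArg C habc
  simp only [map_mul, map_sub, map_add, map_pow, map_ofNat] at h3
  simp only [map_mul, map_add, map_pow, map_one]
  grind

theorem root_pow_eq_one {F : Type*} [Field F] [CharP F 2] (f : F →+* K) {h : ↥(H F)} {x : K}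
    {v : Fin 6 → K} (hv : v ≠ 0) (he : h.1.val.map f *ᵥ v = x • v) {n : ℕ} (hn : h ^ n = 1) :
    x ^ n = 1 := by
  have hp : ∀ k, (h.1.val ^ k).map f *ᵥ v = x ^ k • v := by
    intro k
    induction k with
    | zero => simp
    | succ k ih =>
      rw [pow_succ, Matrix.map_mul, ← Matrix.mulVec_mulVec, he, Matrix.mulVec_smul, ih, smul_smul,
        pow_succ, mul_comm]
  have := hp n
  rw [← Units.val_pow_eq_pow_val, ← SubgroupClass.coe_pow, hn] at this
  simp at this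
  exact smul_left_injective K hv (this.symm.trans (one_smul K v).symm)

end

section
variable {F : Type*} [Field F] [Fintype F] [CharP F 2] {q : ℕ}

theorem exists_primitive {K : Type*} [Field K] [CharP K 2] [IsAlgClosed K] {M : ℕ} (hM : Odd M) :
    ∃ z : Kˣ, orderOf z = M := by
  have : NeZero (M : K) := ⟨by
    obtain ⟨k, rfl⟩ := hM
    simp [two_zero]⟩
  haveI : NeZero M := ⟨hM.pos.ne'⟩
  obtain ⟨a, ha⟩ : ∃ a : K, IsPrimitiveRoot a M := HasEnoughRootsOfUnity.exists_primitiveRoot K M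
  refine ⟨Units.mk0 a (ha.ne_zero hM.pos.ne'), ?_⟩
  rw [← orderOf_units, Units.val_mk0, ← ha.eq_orderOf]

theorem exists_two_mul (hF : Fintype.card F = q) (hq : 4 ≤ q) (he : Even q) {M : ℕ}
    (hM : M = q - 1 ∨ M = q + 1) : ∃ g : ↥(H F), orderOf g = 2 * M := by
  classical
  let K := AlgebraicClosure F
  haveI : CharP K 2 := charP_of_injective_algebraMap (algebraMap F K).injective 2
  obtain ⟨R, hR⟩ := he
  have hodd : Odd M := by rcases hM with rfl | rfl <;> rw [Nat.odd_iff] <;> omega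
  obtain ⟨z, hz⟩ := exists_primitive (K := K) hodd
  have hzM : z ^ M = 1 := hz ▸ pow_orderOf_eq_one z
  have h3M : 3 ≤ M := by rcases hM with rfl | rfl <;> omega
  have hz1 : z ≠ 1 := fun h => by rw [h, orderOf_one] at hz; omega
  set φ := FiniteField.frobeniusAlgHom F K with hφ
  have hφ' : ∀ x : Kˣ, φ (x : K) = ((x ^ q : Kˣ) : K) := fun x => by
    simp [hφ, hF]
  obtain ⟨t, ht⟩ := mem_range_of_pow (F := F) (x := (z : K) + ((z⁻¹ : Kˣ) : K)) (by
    rw [hF, show ∀ x : K, x ^ q = φ x from fun x => by simp [hφ, hF], map_add, hφ', hφ']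
    rcases hM with rfl | rfl
    · have : z ^ q = z := by
        conv_lhs => rw [show q = (q - 1) + 1 by omega, pow_succ, hzM, one_mul]
      rw [inv_pow, this]
    · have : z ^ q = z⁻¹ := eq_inv_of_mul_eq_one_left (by rwa [← pow_succ])
      rw [inv_pow, this, inv_inv, add_comm])
  set f := algebraMap F K
  set P : Matrix (Fin 6) (Fin 6) K := (pU t).1.val.map f with hP
  have h2 := two_zero (K := K)
  have hzi : (z : K) * ((z⁻¹ : Kˣ) : K) = 1 := Units.mul_inv z
  have hpM : (pU t) ^ M = 1 := by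
    have hcub : aeval P ((X - C (1 : K)) * (X - C (z : K)) * (X - C ((z⁻¹ : Kˣ) : K))) = 0 := by
      have hc := congrArg (fun A => Matrix.map A f) (cubic_pU t)
      simp only [Matrix.map_add _ (map_add f), Matrix.map_zero _ (map_zero f),
        Matrix.map_one _ (map_zero f) (map_one f), Matrix.map_pow, ← hP] at hc
      have hsm : ∀ (s : F) (A : Matrix (Fin 6) (Fin 6) F), (s • A).map f = f s • A.map f :=
        fun s A => by ext i j; simp
      simp only [hsm, Matrix.map_pow, ← hP, map_add, map_one, ht] at hc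
      have e : (X - C (1 : K)) * (X - C (z : K)) * (X - C ((z⁻¹ : Kˣ) : K)) =
          X ^ 3 + ((z : K) + ((z⁻¹ : Kˣ) : K) + 1) • X ^ 2
            + ((z : K) + ((z⁻¹ : Kˣ) : K) + 1) • X + 1 := by
        have h2' : (2 : K[X]) = 0 := by
          rw [show (2 : K[X]) = C (2 : K) from (map_ofNat C 2).symm, h2, map_zero]
        have hzi' : C (z : K) * C ((z⁻¹ : Kˣ) : K) = 1 := by rw [← C_mul, hzi, map_one]
        simp only [smul_eq_C_mul, map_add, map_one]
        linear_combination (X - 1) * hzi' -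
          ((1 + C (z : K) + C ((z⁻¹ : Kˣ) : K)) * X ^ 2 + 1) * h2'
      rw [e]
      simpa using hc
    obtain ⟨p, hp⟩ : (X - C (1 : K)) * (X - C (z : K)) * (X - C ((z⁻¹ : Kˣ) : K)) ∣ X ^ M - 1 := by
      have hne : (z : K) ≠ 1 := fun h => hz1 (Units.ext h)
      have hne' : ((z⁻¹ : Kˣ) : K) ≠ 1 := fun h => hz1 (inv_eq_one.1 (Units.ext h))
      have hne'' : (z : K) ≠ ((z⁻¹ : Kˣ) : K) := fun h => hz1 (eq_one_of_self_inv (Units.ext h))
      have := prod_dvd_of_count (s := {(1 : K), (z : K), ((z⁻¹ : Kˣ) : K)}) (e := 1) (M := M)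
        (fun x hx => by
          simp only [Multiset.insert_eq_cons, Multiset.mem_cons, Multiset.mem_singleton] at hx
          rcases hx with rfl | rfl | rfl <;> simp [← Units.val_pow_eq_pow_val, hzM, inv_pow])
        (fun x => Multiset.nodup_iff_count_le_one.1 (by
          simp only [Multiset.insert_eq_cons, Multiset.nodup_cons, Multiset.mem_cons,
            Multiset.mem_singleton, Multiset.nodup_singleton, and_true, not_or]
          exact ⟨⟨hne.symm, hne'.symm⟩, hne''⟩) x)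
      simpa [mul_assoc] using this
    have := congrArg (aeval P) hp
    rw [map_mul, hcub, zero_mul, map_sub, map_pow, aeval_X, map_one, sub_eq_zero, hP,
      ← Matrix.map_pow] at this
    refine Subtype.ext (Units.ext (Matrix.map_injective f.injective ?_))
    rw [SubgroupClass.coe_pow, Units.val_pow_eq_pow_val]
    exact this.trans (Matrix.map_one _ (map_zero f) (map_one f)).symm
  refine ⟨pU t * iU, ?_⟩
  have hc := pU_comm t
  have h1 : (pU t * iU) ^ (2 * M) = 1 := by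
    rw [hc.mul_pow, pow_mul', hpM, one_pow, pow_mul, iU_sq, one_pow, one_mul]
  have hdvd := orderOf_dvd_of_pow_eq_one h1
  have hMdvd : M ∣ orderOf (pU t * iU) := by
    set n := orderOf (pU t * iU) with hn
    have hn1 : (pU t) ^ (2 * n) = 1 := by
      have := congrArg (· ^ 2) (pow_orderOf_eq_one (pU t * iU))
      simp only [← hn, hc.mul_pow, one_pow] at this
      rwa [(hc.pow_pow n n).mul_pow, ← pow_mul, ← pow_mul, mul_comm n 2, pow_mul (iU : ↥(H F)), iU_sq, one_pow, mul_one] at this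
    have he : P *ᵥ ![(z : K) + 1, 0, 0, 0, 1, 0] = (z : K) • ![(z : K) + 1, 0, 0, 0, 1, 0] := by
      rw [hP, val_pU]
      funext i
      have hzi2 : (z : K) * (z : K)⁻¹ = 1 := mul_inv_cancel₀ z.ne_zero
      fin_cases i <;> simp [Matrix.mulVec, dotProduct, Fin.sum_univ_six, ht] <;>
        first
          | linear_combination h2
          | linear_combination hzi2 + ((z : K) + (z : K)⁻¹ + 1) * h2
          | linear_combination (1 : K) * h2
    have hzn := root_pow_eq_one f (h := pU t)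
      (fun h => by simpa using congrFun h 4) he hn1
    have hzn' : z ^ (2 * n) = 1 := Units.ext (by rw [Units.val_pow_eq_pow_val]; exact hzn)
    have h := orderOf_dvd_of_pow_eq_one hzn'
    rw [hz] at h
    exact (Nat.Coprime.dvd_mul_left (hodd.coprime_two_right)).1 h
  have hne : orderOf (pU t * iU) ≠ M := fun h => iU_ne_one (F := F) (by
    have h' := pow_orderOf_eq_one (pU t * iU)
    rw [h, hc.mul_pow, hpM, one_mul] at h'
    obtain ⟨k, hk⟩ := hodd
    rwa [hk, pow_succ, pow_mul, iU_sq, one_pow, one_mul] at h')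
  obtain ⟨k, hk⟩ := hMdvd
  rw [hk] at hdvd hne ⊢
  have hk2 : k ∣ 2 := Nat.dvd_of_mul_dvd_mul_left hodd.pos (by rwa [mul_comm 2 M] at hdvd)
  rcases (Nat.dvd_prime Nat.prime_two).1 hk2 with rfl | rfl
  · simp at hne
  · ring

theorem exists_big (hF : Fintype.card F = q) (hq : 4 ≤ q) (he : Even q) {M : ℕ}
    (hM : M = q ^ 2 - 1 ∨ M = q ^ 2 + q + 1 ∨ M = q ^ 2 - q + 1) :
    ∃ g : ↥(H F), orderOf g = M := by
  classical
  let K := AlgebraicClosure F
  haveI : CharP K 2 := charP_of_injective_algebraMap (algebraMap F K).injective 2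
  obtain ⟨R, hR⟩ := he
  have hsq : q ^ 2 = 4 * (R * R) := by rw [hR]; ring
  have hqq : 4 * q ≤ q ^ 2 := by nlinarith
  have hodd : Odd M := by rcases hM with rfl | rfl | rfl <;> rw [Nat.odd_iff] <;> omega
  obtain ⟨a, ha⟩ := exists_primitive (K := K) hodd
  have haM : a ^ M = 1 := ha ▸ pow_orderOf_eq_one a
  have hM0 : a ^ (M : ℤ) = 1 := by rw [zpow_natCast]; exact haM
  set φ := FiniteField.frobeniusAlgHom F K with hφ
  have hφ' : ∀ x : Kˣ, φ (x : K) = ((x ^ (q : ℤ) : Kˣ) : K) := fun x => by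
    simp [hφ, hF, zpow_natCast]
  let S : Kˣ → K := fun x => (x : K) + ((x⁻¹ : Kˣ) : K)
  have hSi : ∀ x, S x⁻¹ = S x := fun x => by simp only [S, inv_inv]; exact add_comm _ _
  have hSφ : ∀ x : Kˣ, φ (S x) = S (x ^ (q : ℤ)) := fun x => by
    simp only [S, map_add, hφ', _root_.inv_zpow]
  obtain ⟨b, c, habc, hperm⟩ : ∃ b c : Kˣ, a * b * c = 1 ∧
      φ (S a) = S b ∧ ((φ (S b) = S c ∧ φ (S c) = S a) ∨ (φ (S b) = S a ∧ φ (S c) = S c)) := by
    have hk : ∀ m : ℤ, (∃ k : ℤ, m = (M : ℤ) * k) → a ^ m = 1 := fun m ⟨k, hk⟩ => by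
      rw [hk, _root_.zpow_mul, hM0, one_zpow]
    have heqz : ∀ m n : ℤ, (∃ k : ℤ, m = n + (M : ℤ) * k) → a ^ m = a ^ n := fun m n ⟨k, hmn⟩ => by
      rw [hmn, _root_.zpow_add, _root_.zpow_mul, hM0, one_zpow, mul_one]
    rcases hM with rfl | rfl | rfl
    · have c1 : ((q ^ 2 - 1 : ℕ) : ℤ) = (q : ℤ) ^ 2 - 1 := by
        rw [Nat.cast_sub (by omega)]; push_cast; ring
      refine ⟨a ^ (q : ℤ), a ^ (-1 - q : ℤ), ?_, hSφ a, Or.inr ⟨?_, ?_⟩⟩
      · rw [show -1 - (q : ℤ) = -((q : ℤ) + 1) by ring, _root_.zpow_neg, _root_.zpow_add,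
          zpow_one, mul_comm a, mul_inv_cancel]
      · rw [hSφ, ← _root_.zpow_mul, heqz _ 1 ⟨1, by rw [c1]; ring⟩, zpow_one]
      · rw [hSφ, ← _root_.zpow_mul, heqz _ (-1 - q : ℤ) ⟨-1, by rw [c1]; ring⟩]
    · have c1 : ((q ^ 2 + q + 1 : ℕ) : ℤ) = (q : ℤ) ^ 2 + q + 1 := by push_cast; ring
      refine ⟨a ^ (q : ℤ), a ^ ((q : ℤ) ^ 2), ?_, hSφ a, Or.inl ⟨?_, ?_⟩⟩
      · calc a * a ^ (q : ℤ) * a ^ ((q : ℤ) ^ 2) = a ^ (1 + (q : ℤ) + (q : ℤ) ^ 2) := by
              rw [_root_.zpow_add, _root_.zpow_add, zpow_one]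
          _ = 1 := hk _ ⟨1, by rw [c1]; ring⟩
      · rw [hSφ, ← _root_.zpow_mul, sq]
      · rw [hSφ, ← _root_.zpow_mul, heqz _ 1 ⟨q - 1, by rw [c1]; ring⟩, zpow_one]
    · have c1 : ((q ^ 2 - q + 1 : ℕ) : ℤ) = (q : ℤ) ^ 2 - q + 1 := by
        rw [Nat.cast_add, Nat.cast_sub (by omega)]; push_cast; ring
      refine ⟨a ^ (-q : ℤ), a ^ ((q : ℤ) ^ 2), ?_, ?_, Or.inl ⟨?_, ?_⟩⟩
      · calc a * a ^ (-q : ℤ) * a ^ ((q : ℤ) ^ 2) = a ^ (1 + (-q : ℤ) + (q : ℤ) ^ 2) := by
              rw [_root_.zpow_add, _root_.zpow_add, zpow_one]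
          _ = 1 := hk _ ⟨1, by rw [c1]; ring⟩
      · rw [hSφ, ← hSi, ← _root_.zpow_neg]
      · rw [hSφ, ← hSi, ← _root_.zpow_mul, ← _root_.zpow_neg]
        congr 2
        ring
      · rw [hSφ, ← hSi, ← _root_.zpow_mul, ← _root_.zpow_neg,
          heqz _ 1 ⟨-((q : ℤ) + 1), by rw [c1]; ring⟩, zpow_one]
  set e1 := S a + S b + S c with he1
  set e2 := 1 + S a * S b + S a * S c + S b * S c with he2
  obtain ⟨u, hu⟩ := mem_range_of_pow (F := F) (x := e1) (by
    rw [show e1 ^ Fintype.card F = φ e1 by simp [hφ], he1, map_add, map_add, hperm.1]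
    rcases hperm.2 with ⟨h1, h2⟩ | ⟨h1, h2⟩ <;> rw [h1, h2] <;> ring)
  obtain ⟨v, hv⟩ := mem_range_of_pow (F := F) (x := e2) (by
    rw [show e2 ^ Fintype.card F = φ e2 by simp [hφ], he2]
    simp only [map_add, map_mul, map_one, hperm.1]
    rcases hperm.2 with ⟨h1, h2⟩ | ⟨h1, h2⟩ <;> rw [h1, h2] <;> ring)
  set f := algebraMap F K
  set h := secU u v
  have hchar : (h.1.val.map f).charpoly = ((St a b c).map fun x => X - C x).prod := by
    rw [prod_St a b c habc, Matrix.charpoly_map, charpoly_secU]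
    simp only [Polynomial.map_add, Polynomial.map_mul, Polynomial.map_pow, map_C, map_X,
      Polynomial.map_one, map_pow, hu, hv, he1, he2, S]
  obtain ⟨w, hw, hwv⟩ : ∃ w, w ≠ 0 ∧ h.1.val.map f *ᵥ w = (a : K) • w := by
    have h0 : ((Matrix.scalar (Fin 6) (a : K)) - h.1.val.map f).det = 0 := by
      rw [← Matrix.eval_charpoly, hchar, eval_multiset_prod, Multiset.prod_eq_zero_iff]
      simp [St]
    obtain ⟨w, hw, hwv⟩ := Matrix.exists_mulVec_eq_zero_iff.2 h0
    refine ⟨w, hw, ?_⟩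
    rw [Matrix.sub_mulVec, sub_eq_zero] at hwv
    rw [← hwv]
    simp [Matrix.scalar_apply]
  refine ⟨h, ?_⟩
  have hMdvd : M ∣ orderOf h := by
    rw [← ha, orderOf_dvd_iff_pow_eq_one]
    exact Units.ext (by
      rw [Units.val_pow_eq_pow_val]
      exact root_pow_eq_one f hw hwv (pow_orderOf_eq_one h))
  obtain ⟨m, hm, hdvd⟩ := orderOf_dvd_goals hF hq (equiv F h)
  rw [MulEquiv.orderOf_eq] at hdvd
  refine Nat.dvd_antisymm ?_ hMdvd
  obtain ⟨k, hk⟩ := hMdvd.trans hdvd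
  have hm' : m < 2 * M ∧ 0 < m := by
    simp only [goals, Set.mem_insert_iff, Set.mem_singleton_iff] at hm
    rcases hM with rfl | rfl | rfl <;> omega
  obtain rfl : k = 1 := by
    rcases k with _ | _ | k
    · omega
    · rfl
    · have : M * 2 ≤ M * (k + 1 + 1) := Nat.mul_le_mul_left _ (by omega)
      omega
  rw [mul_one] at hk
  exact hk ▸ hdvd

/-- Every admissible exponent is an element order. -/
theorem exists_orderOf_eq (hF : Fintype.card F = q) (hq : 4 ≤ q) {m : ℕ} (hm : m ∈ goals q) :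
    ∃ x : ↥(chevG2.group F), orderOf x = m := by
  have he : Even q := by
    obtain ⟨n, hp, hn⟩ := FiniteField.card F 2
    exact hF ▸ hn ▸ (Nat.even_pow.2 ⟨even_two, n.pos.ne'⟩)
  suffices ∃ g : ↥(H F), orderOf g = m by
    obtain ⟨g, hg⟩ := this
    exact ⟨equiv F g, by rw [MulEquiv.orderOf_eq, hg]⟩
  simp only [goals, Set.mem_insert_iff, Set.mem_singleton_iff] at hm
  rcases hm with rfl | rfl | rfl | rfl | rfl | rfl | rfl
  · exact ⟨w8, orderOf_w8⟩
  · exact ⟨w12, orderOf_w12⟩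
  · exact exists_two_mul hF hq he (Or.inr rfl)
  · exact exists_two_mul hF hq he (Or.inl rfl)
  · exact exists_big hF hq he (Or.inl rfl)
  · exact exists_big hF hq he (Or.inr (Or.inl rfl))
  · exact exists_big hF hq he (Or.inr (Or.inr rfl))

end

end Cfsg.Agent.H66.G2Two
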