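import Cfsg.Agent.H66.G2Two.Tables
import Cfsg.Agent.Chev.Rules

/-!
The six-dimensional symplectic representation of `G₂` in characteristic two: the group generated
by the root matrices, its invariant forms, and the isomorphism with the adjoint group
(owner: helper66).
-/

set_option autoImplicit false

namespace Cfsg.Agent.H66.G2Two

open Cfsg.Lie Matrix
open Cfsg.Agent.G2Singer (I xP coeffP xMat_eq_xP)

variable (K : Type*) [Field K] [CharP K 2]

/-- The scalars from the prime field. -/
def iota : ZMod 2 →+* K := ZMod.castHom (dvd_refl 2) K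

/-- A matrix over the prime field read over `K`. -/
def mp (M : M6) : Matrix (Fin 6) (Fin 6) K := M.map (iota K)

variable {K}

theorem two_zero : (2 : K) = 0 := CharTwo.two_eq_zero

theorem mp_mul (A B : M6) : mp K (A * B) = mp K A * mp K B := Matrix.map_mul

theorem mp_add (A B : M6) : mp K (A + B) = mp K A + mp K B := Matrix.map_add _ (map_add _) _ _

theorem mp_one : mp K 1 = 1 := Matrix.map_one _ (map_zero _) (map_one _)

theorem mp_zero : mp K 0 = 0 := Matrix.map_zero _ (map_zero _)

theorem mp_injective : Function.Injective (mp K) := Matrix.map_injective (iota K).injective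

theorem mp_pow (A : M6) (n : ℕ) : mp K (A ^ n) = mp K A ^ n := by
  induction n with
  | zero => rw [pow_zero, pow_zero, mp_one]
  | succ n ih => rw [pow_succ, pow_succ, mp_mul, ih]

/-- The root matrix. -/
def yMat (r : Fin 12) (t : K) : Matrix (Fin 6) (Fin 6) K :=
  1 + t • mp K (cM r 1) + t ^ 2 • mp K (cM r 2)

theorem yMat_mul_self (r : Fin 12) (t : K) : yMat r t * yMat r t = 1 := by
  obtain ⟨h1, h2, h3⟩ := cM_inv r
  have e1 : mp K (cM r 1) * mp K (cM r 1) = 0 := by rw [← mp_mul, h1, mp_zero]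
  have e2 : mp K (cM r 1) * mp K (cM r 2) + mp K (cM r 2) * mp K (cM r 1) = 0 := by
    rw [← mp_mul, ← mp_mul, ← mp_add, h2, mp_zero]
  have e3 : mp K (cM r 2) * mp K (cM r 2) = 0 := by rw [← mp_mul, h3, mp_zero]
  have dbl : ∀ X : Matrix (Fin 6) (Fin 6) K, X + X = 0 := fun X => by
    ext i j; exact CharTwo.add_self_eq_zero _
  calc yMat r t * yMat r t
      = 1 + (t • mp K (cM r 1) + t • mp K (cM r 1)) + (t ^ 2 • mp K (cM r 2) + t ^ 2 • mp K (cM r 2))
        + (t * t) • (mp K (cM r 1) * mp K (cM r 1))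
        + (t * t ^ 2) • (mp K (cM r 1) * mp K (cM r 2) + mp K (cM r 2) * mp K (cM r 1))
        + (t ^ 2 * t ^ 2) • (mp K (cM r 2) * mp K (cM r 2)) := by
        simp only [yMat, mul_add, add_mul, one_mul, mul_one, smul_mul_assoc, mul_smul_comm, smul_smul]
        module
    _ = 1 := by rw [e1, e2, e3, dbl, dbl]; simp

/-- The root element. -/
def yU (r : Fin 12) (t : K) : GL (Fin 6) K :=
  ⟨yMat r t, yMat r t, yMat_mul_self r t, yMat_mul_self r t⟩

theorem val_yU (r : Fin 12) (t : K) : (yU r t : Matrix (Fin 6) (Fin 6) K) = yMat r t := rfl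

theorem inv_yU (r : Fin 12) (t : K) : (yU r t)⁻¹ = yU r t := Units.ext rfl

variable (K) in
/-- The six-dimensional group. -/
def H : Subgroup (GL (Fin 6) K) := Subgroup.closure {g | ∃ r t, g = yU r t}

theorem yU_mem (r : Fin 12) (t : K) : yU r t ∈ H K := Subgroup.subset_closure ⟨r, t, rfl⟩

theorem H_induction {P : GL (Fin 6) K → Prop} (one : P 1)
    (step : ∀ r t h, h ∈ H K → P h → P (yU r t * h)) {g : GL (Fin 6) K} (hg : g ∈ H K) : P g := by
  induction hg using Subgroup.closure_induction_left with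
  | one => exact one
  | mul_left x hx y hy ih => obtain ⟨r, t, rfl⟩ := hx; exact step r t y hy ih
  | inv_mul_cancel x hx y hy ih =>
    obtain ⟨r, t, rfl⟩ := hx; rw [inv_yU]; exact step r t y hy ih

/-- The root matrix applied to a vector. -/
def yVec (r : Fin 12) (t : K) (x : Fin 6 → K) : Fin 6 → K :=
  ![![x 0, x 1, x 2, x 3, x 4 + t * x 0, x 5 + t * x 1],
    ![x 0, x 1, x 2, x 3 + t * x 0, x 4, x 5 + t * x 2],
    ![x 0, x 1, x 2, x 3 + t * x 1, x 4 + t * x 2, x 5 + t ^ 2 * x 0],
    ![x 0, x 1, x 2 + t * x 0, x 3, x 4 + t ^ 2 * x 1, x 5 + t * x 3],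
    ![x 0, x 1 + t * x 0, x 2, x 3 + t ^ 2 * x 2, x 4, x 5 + t * x 4],
    ![x 0, x 1, x 2 + t * x 1, x 3, x 4 + t * x 3, x 5],
    ![x 0, x 1 + t * x 2, x 2, x 3 + t * x 4, x 4, x 5],
    ![x 0 + t * x 1, x 1, x 2 + t ^ 2 * x 3, x 3, x 4 + t * x 5, x 5],
    ![x 0 + t * x 2, x 1 + t ^ 2 * x 4, x 2, x 3 + t * x 5, x 4, x 5],
    ![x 0 + t ^ 2 * x 5, x 1 + t * x 3, x 2 + t * x 4, x 3, x 4, x 5],
    ![x 0 + t * x 3, x 1, x 2 + t * x 5, x 3, x 4, x 5],
    ![x 0 + t * x 4, x 1 + t * x 5, x 2, x 3, x 4, x 5]] r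

theorem yMat_mulVec (r : Fin 12) (t : K) (x : Fin 6 → K) : yMat r t *ᵥ x = yVec r t x := by
  funext i
  fin_cases r <;> fin_cases i <;>
    simp [yMat, yVec, cM, ofEnt, ent1, ent2, mp, iota, Matrix.mulVec, dotProduct, Fin.sum_univ_six,
      Matrix.one_apply] <;> ring

/-- The symplectic form. -/
def om (x y : Fin 6 → K) : K :=
  x 0 * y 5 + x 5 * y 0 + (x 1 * y 4 + x 4 * y 1) + (x 2 * y 3 + x 3 * y 2)

/-- The alternating trilinear form; it is invariant on totally isotropic triples. -/
def tri (x y z : Fin 6 → K) : K :=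
  (x 0 * y 3 * z 4 + x 0 * y 4 * z 3 + x 3 * y 0 * z 4 + x 3 * y 4 * z 0 + x 4 * y 0 * z 3 + x 4 * y 3 * z 0)
    + (x 5 * y 2 * z 1 + x 5 * y 1 * z 2 + x 2 * y 5 * z 1 + x 2 * y 1 * z 5 + x 1 * y 5 * z 2 + x 1 * y 2 * z 5)

/-- The linear form measuring the change of `tri` under a root element. -/
def lin (r : Fin 12) (z : Fin 6 → K) : K :=
  ![0, 0, z 0, z 1, z 2, 0, 0, z 3, z 4, z 5, 0, 0] r

theorem om_yVec (r : Fin 12) (t : K) (x y : Fin 6 → K) :
    om (yVec r t x) (yVec r t y) = om x y := by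
  have h2 := two_zero (K := K)
  fin_cases r <;> simp [om, yVec] <;> grind

theorem tri_yVec (r : Fin 12) (t : K) (x y z : Fin 6 → K) :
    tri (yVec r t x) (yVec r t y) (yVec r t z) =
      tri x y z + t * (om x y * lin r z + om y z * lin r x + om z x * lin r y) := by
  have h2 := two_zero (K := K)
  fin_cases r <;> simp [tri, om, yVec, lin] <;> grind

/-- The invariance properties. -/
def IsG (g : Matrix (Fin 6) (Fin 6) K) : Prop :=
  (∀ x y, om (g *ᵥ x) (g *ᵥ y) = om x y) ∧
    ∀ x y z, om x y = 0 → om y z = 0 → om z x = 0 → tri (g *ᵥ x) (g *ᵥ y) (g *ᵥ z) = tri x y z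

theorem IsG.mul {g h : Matrix (Fin 6) (Fin 6) K} (hg : IsG g) (hh : IsG h) : IsG (g * h) := by
  refine ⟨fun x y => ?_, fun x y z a b c => ?_⟩
  · rw [← mulVec_mulVec, ← mulVec_mulVec, hg.1, hh.1]
  · rw [← mulVec_mulVec, ← mulVec_mulVec, ← mulVec_mulVec,
      hg.2 _ _ _ ((hh.1 _ _).trans a) ((hh.1 _ _).trans b) ((hh.1 _ _).trans c), hh.2 _ _ _ a b c]

theorem isG_yMat (r : Fin 12) (t : K) : IsG (yMat r t) := by
  refine ⟨fun x y => ?_, fun x y z a b c => ?_⟩
  · rw [yMat_mulVec, yMat_mulVec, om_yVec]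
  · rw [yMat_mulVec, yMat_mulVec, yMat_mulVec, tri_yVec, a, b, c]; simp

theorem isG_of_mem {g : GL (Fin 6) K} (hg : g ∈ H K) : IsG (g : Matrix (Fin 6) (Fin 6) K) := by
  refine H_induction (P := fun g => IsG (g : Matrix (Fin 6) (Fin 6) K))
    ⟨fun x y => by simp, fun x y z _ _ _ => by simp⟩ (fun r t h _ ih => ?_) hg
  rw [Units.val_mul, val_yU]; exact (isG_yMat r t).mul ih

/-! ### The adjoint action -/

variable (K) in
/-- The basis of the Lie algebra over `K`. -/
def eK (a : I) : Matrix (Fin 6) (Fin 6) K := mp K (eM a)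

/-- Coordinates on the basis. -/
def crd (X : Matrix (Fin 6) (Fin 6) K) (a : I) : K := ((pos a).map fun p => X p.1 p.2).sum

theorem crd_sum (c : I → K) (a : I) : crd (∑ b, c b • eK K b) a = c a := by
  have h : ∀ b, ((pos a).map fun p => eK K b p.1 p.2).sum = if a = b then 1 else 0 := by
    intro b
    have := congrArg (iota K) (coord_eM a b)
    rw [map_list_sum, List.map_map, apply_ite (iota K), map_one, map_zero] at this
    exact this
  unfold crd
  calc ((pos a).map fun p => (∑ b, c b • eK K b) p.1 p.2).sum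
      = ((pos a).map fun p => ∑ b, c b * eK K b p.1 p.2).sum := by
        simp only [Matrix.sum_apply, Matrix.smul_apply, smul_eq_mul]
    _ = ∑ b, c b * ((pos a).map fun p => eK K b p.1 p.2).sum := by
        induction pos a with
        | nil => simp
        | cons p l ih => simp only [List.map_cons, List.sum_cons, ih, mul_add, Finset.sum_add_distrib]
    _ = c a := by simp [h]

/-- The matrix of the conjugation action. -/
def act (g : GL (Fin 6) K) : Matrix I I K :=
  Matrix.of fun a b => crd ((g : Matrix (Fin 6) (Fin 6) K) * eK K b * (g⁻¹ : GL (Fin 6) K).val) a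

/-- Conjugation preserves the Lie algebra. -/
def Spn (g : GL (Fin 6) K) : Prop :=
  ∀ b, (g : Matrix (Fin 6) (Fin 6) K) * eK K b * (g⁻¹ : GL (Fin 6) K).val = ∑ a, act g a b • eK K a

theorem spn_of_eq {g : GL (Fin 6) K} {M : Matrix I I K}
    (h : ∀ b, (g : Matrix (Fin 6) (Fin 6) K) * eK K b * (g⁻¹ : GL (Fin 6) K).val = ∑ a, M a b • eK K a) :
    Spn g ∧ act g = M := by
  have e : act g = M := by
    ext a b
    show crd _ a = _
    rw [h b, crd_sum]
  exact ⟨fun b => by rw [h b, e], e⟩

theorem spn_one : Spn (1 : GL (Fin 6) K) ∧ act (1 : GL (Fin 6) K) = 1 := by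
  refine spn_of_eq fun b => ?_
  simp [Matrix.one_apply]

theorem spn_mul {g h : GL (Fin 6) K} (hg : Spn g) (hh : Spn h) :
    Spn (g * h) ∧ act (g * h) = act g * act h := by
  refine spn_of_eq fun b => ?_
  rw [_root_.mul_inv_rev, Units.val_mul, Units.val_mul]
  calc (g : Matrix (Fin 6) (Fin 6) K) * (h : Matrix (Fin 6) (Fin 6) K) * eK K b *
        ((h⁻¹ : GL (Fin 6) K).val * (g⁻¹ : GL (Fin 6) K).val)
      = g.val * (h.val * eK K b * (h⁻¹ : GL (Fin 6) K).val) * (g⁻¹ : GL (Fin 6) K).val := by
        simp only [mul_assoc]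
    _ = ∑ c, act h c b • (g.val * eK K c * (g⁻¹ : GL (Fin 6) K).val) := by
        rw [hh b, Finset.mul_sum, Finset.sum_mul]
        simp only [mul_smul_comm, smul_mul_assoc]
    _ = ∑ c, ∑ a, (act h c b * act g a c) • eK K a := by
        refine Finset.sum_congr rfl fun c _ => ?_
        rw [hg c, Finset.smul_sum]
        simp only [smul_smul]
    _ = _ := by
        rw [Finset.sum_comm]
        refine Finset.sum_congr rfl fun a _ => ?_
        rw [Matrix.mul_apply, Finset.sum_smul]
        simp only [mul_comm]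

theorem sum_count_smul {R : Type*} [Semiring R] (E : I → Matrix (Fin 6) (Fin 6) R) (l : List I) :
    ∑ a : I, (l.count a : R) • E a = (l.map E).sum := by
  have h1 : ∀ a b : I, (a == b) = true → a = b := by decide
  have h2 : ∀ a : I, (a == a) = true := by decide
  haveI : LawfulBEq I := { eq_of_beq := fun {a b} => h1 a b, rfl := fun {a} => h2 a }
  induction l with
  | nil => simp
  | cons x l ih =>
    have hc : ∀ a, ((x :: l).count a : R) = (if x = a then 1 else 0) + (l.count a : R) := fun a => by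
      rcases eq_or_ne x a with rfl | h
      · rw [if_pos rfl, List.count_cons_self, Nat.cast_succ, add_comm]
      · rw [if_neg h, List.count_cons_of_ne h, zero_add]
    simp only [hc, add_smul, Finset.sum_add_distrib, ih, List.map_cons, List.sum_cons, ite_smul,
      one_smul, zero_smul, Finset.sum_ite_eq, Finset.mem_univ, if_true]

theorem sum_terms {F : Type*} [Field F] (l : List (ℕ × ℤ)) (hl : ∀ km ∈ l, km.1 < 5) (t : F) :
    (l.map fun km => ((km.2 : ℤ) : F) * t ^ km.1).sum =
      ∑ k : Fin 5, (coeffP l k : F) * t ^ (k : ℕ) := by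
  induction l with
  | nil => simp [coeffP]
  | cons km l ih =>
    obtain ⟨k, c⟩ := km
    rw [List.map_cons, List.sum_cons, ih fun x hx => hl x (List.mem_cons_of_mem _ hx)]
    have hk : k < 5 := hl (k, c) List.mem_cons_self
    interval_cases k <;> simp [coeffP, Fin.sum_univ_five] <;> ring

theorem yMat_conj (r : Fin 12) (t : K) (b : I) :
    yMat r t * eK K b * yMat r t = ∑ a : I, chevG2.xMat K r t a b • eK K a := by
  have hc : ∀ a (k : Fin 5), ((coeffP (xP r a b) k : ℤ) : K) =
      iota K ((((xT r b k).count a : ℕ) : ZMod 2)) := fun a k => by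
    rw [← coeff_table, map_intCast]
  have hx : ∀ a : I, chevG2.xMat K r t a b =
      ∑ k : Fin 5, iota K (((xT r b k).count a : ℕ) : ZMod 2) * t ^ (k : ℕ) := fun a => by
    rw [xMat_eq_xP, sum_terms _ (xP_deg r a b)]
    simp only [hc]
  calc yMat r t * eK K b * yMat r t = ∑ k : Fin 5, t ^ (k : ℕ) • mp K (lhsC r b k) := by
        simp only [lhsC, Fin.sum_univ_five, Matrix.cons_val_zero, Matrix.cons_val_one,
          Matrix.cons_val, mp_add, mp_mul, eK, yMat, mul_add, add_mul, one_mul, mul_one,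
          smul_mul_assoc, mul_smul_comm, smul_smul]
        simp
        module
    _ = ∑ k : Fin 5, t ^ (k : ℕ) • ∑ a : I, iota K (((xT r b k).count a : ℕ) : ZMod 2) • eK K a := by
        refine Finset.sum_congr rfl fun k _ => congrArg _ ?_
        rw [conj_table, ← sum_count_smul eM]
        ext i j
        simp [mp, eK, Matrix.sum_apply]
    _ = _ := by
        simp only [Finset.smul_sum, hx, Finset.sum_smul, smul_smul, mul_comm (iota K _)]
        exact Finset.sum_comm

/-- The adjoint root element as a matrix on `I`. -/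
def xI (r : Fin 12) (t : K) : Matrix I I K := chevG2.xMat K r t

theorem spn_yU (r : Fin 12) (t : K) : Spn (yU r t) ∧ act (yU r t) = xI r t := by
  refine spn_of_eq fun b => ?_
  rw [inv_yU]
  exact yMat_conj r t b

theorem spn_of_mem {g : GL (Fin 6) K} (hg : g ∈ H K) : Spn g := by
  exact H_induction (P := Spn) spn_one.1 (fun r t h _ ih => (spn_mul (spn_yU r t).1 ih).1) hg

/-- The adjoint representation of `H`. -/
noncomputable def adj : ↥(H K) →* GL chevG2.Idx K :=
  MonoidHom.toHomUnits
    { toFun := fun h => (act h.1 : Matrix chevG2.Idx chevG2.Idx K)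
      map_one' := spn_one.2
      map_mul' := fun g h => (spn_mul (spn_of_mem g.2) (spn_of_mem h.2)).2 }

theorem val_adj (h : ↥(H K)) : (adj h : Matrix chevG2.Idx chevG2.Idx K) = act h.1 := rfl

theorem adj_mem (h : ↥(H K)) : adj h ∈ chevG2.group K := by
  obtain ⟨g, hg⟩ := h
  induction hg using Subgroup.closure_induction with
  | mem x hx =>
    obtain ⟨r, t, rfl⟩ := hx
    exact Subgroup.subset_closure ⟨r, t, (spn_yU r t).2⟩
  | one => exact (map_one (adj (K := K))).symm ▸ one_mem _
  | mul x y hx hy ihx ihy => exact (map_mul adj ⟨x, hx⟩ ⟨y, hy⟩).symm ▸ mul_mem ihx ihy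
  | inv x hx ih => exact (map_inv adj ⟨x, hx⟩).symm ▸ inv_mem ih

theorem adj_surj {g : GL chevG2.Idx K} (hg : g ∈ chevG2.group K) : ∃ h, adj h = g := by
  change g ∈ (adj (K := K)).range
  refine (Subgroup.closure_le _).2 ?_ hg
  rintro x ⟨r, t, hx⟩
  exact ⟨⟨yU r t, yU_mem r t⟩, Units.ext ((spn_yU r t).2.trans hx.symm)⟩

theorem coef_sum (X : Matrix (Fin 6) (Fin 6) K) (L : List (I × Fin 6 × Fin 6)) :
    (L.map fun x => (X * eK K x.1) x.2.1 x.2.2 + (eK K x.1 * X) x.2.1 x.2.2).sum =
      ∑ m, ∑ n, iota K (coef L m n) * X m n := by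
  induction L with
  | nil => simp [coef]
  | cons x L ih =>
    obtain ⟨b, k, l⟩ := x
    rw [List.map_cons, List.sum_cons, ih]
    simp only [coef, List.map_cons, List.sum_cons, map_add, apply_ite (iota K), map_zero, add_mul,
      ite_mul, zero_mul, Finset.sum_add_distrib]
    congr 1
    simp [Matrix.mul_apply, eK, mp, mul_comm]

theorem eq_one_of_act {g : GL (Fin 6) K} (hg : g ∈ H K) (h : act g = 1) : g = 1 := by
  set X : Matrix (Fin 6) (Fin 6) K := g.val with hX
  have hcom : ∀ b, X * eK K b = eK K b * X := by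
    intro b
    have h1 := spn_of_mem hg b
    rw [h] at h1
    simp only [Matrix.one_apply, ite_smul, one_smul, zero_smul, Finset.sum_ite_eq', Finset.mem_univ,
      if_true] at h1
    calc X * eK K b = X * eK K b * ((g⁻¹ : GL (Fin 6) K).val * g.val) := by simp
      _ = eK K b * X := by rw [← mul_assoc, h1]
  have key : ∀ i j, X i j + (if i = j then X 0 0 else 0) = 0 := by
    intro i j
    have h1 := coef_sum X (cert i j)
    have h2 : ∀ x : I × Fin 6 × Fin 6,
        (X * eK K x.1) x.2.1 x.2.2 + (eK K x.1 * X) x.2.1 x.2.2 = 0 := fun x => by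
      rw [hcom]; exact CharTwo.add_self_eq_zero _
    simp only [h2, List.map_const', List.sum_replicate, smul_zero, cert_ok, map_add,
      apply_ite (iota K), map_one, map_zero, add_mul, ite_mul, one_mul, zero_mul,
      Finset.sum_add_distrib] at h1
    rcases eq_or_ne i j with rfl | hij
    · simpa [ite_and] using h1.symm
    · simpa [ite_and, hij] using h1.symm
  have hd : ∀ i j, X i j = if i = j then X 0 0 else 0 := fun i j =>
    CharTwo.add_eq_zero.1 (key i j)
  have hc := (isG_of_mem hg).1 (Pi.single 0 1) (Pi.single 5 1)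
  rw [← hX] at hc
  have hoff : ∀ i j, i ≠ j → X i j = 0 := fun i j hij => by rw [hd, if_neg hij]
  have h55 : X 5 5 = X 0 0 := by rw [hd, if_pos rfl]
  simp [om, hoff 5 0 (by decide), hoff 0 5 (by decide), hoff 1 0 (by decide), hoff 4 0 (by decide),
    hoff 2 0 (by decide), hoff 3 0 (by decide), hoff 1 5 (by decide), hoff 4 5 (by decide),
    hoff 2 5 (by decide), hoff 3 5 (by decide), h55] at hc
  have h00 : X 0 0 = 1 := by
    have h0 : (X 0 0 - 1) ^ 2 = 0 := by linear_combination hc + (1 - X 0 0) * two_zero (K := K)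
    simpa [sub_eq_zero] using h0
  refine Units.ext (Matrix.ext fun i j => ?_)
  show X i j = _
  rw [hd, h00]
  simp [Matrix.one_apply]

theorem adj_injective : Function.Injective (adj (K := K)) := by
  refine (injective_iff_map_eq_one _).2 fun h hh => Subtype.ext ?_
  exact eq_one_of_act h.2 (congrArg Units.val hh)

variable (K) in
/-- The adjoint group is the six-dimensional group. -/
noncomputable def equiv : ↥(H K) ≃* ↥(chevG2.group K) :=
  MulEquiv.ofBijective ((adj (K := K)).codRestrict _ adj_mem)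
    ⟨fun _ _ h => adj_injective (congrArg Subtype.val h),
      fun g => (adj_surj g.2).imp fun _ h => Subtype.ext h⟩

end Cfsg.Agent.H66.G2Two
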