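import Cfsg.Agent.H66.G2Two.Eigen
import Cfsg.Agent.S1059
import Mathlib.FieldTheory.Finite.Basic
import Mathlib.RingTheory.Polynomial.Basic

/-!
Bound on the element orders of `G₂(2^α)` (owner: helper66).
-/

set_option autoImplicit false
set_option linter.style.haveILetI false

namespace Cfsg.Agent.H66.G2Two

open Polynomial
open scoped Matrix
open Cfsg.Lie (chevG2)

theorem eq_one_of_coprime {G : Type*} [Group G] {a : G} {m n : ℤ} (hc : IsCoprime m n)
    (hm : a ^ m = 1) (hn : a ^ n = 1) : a = 1 := by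
  obtain ⟨u, v, h⟩ := hc
  calc a = a ^ (u * m + v * n) := by rw [h, zpow_one]
    _ = 1 := by rw [zpow_add, mul_comm u, mul_comm v, _root_.zpow_mul, _root_.zpow_mul, hm, hn]; simp

theorem coprime_four {m : ℤ} (h : IsCoprime m 2) : IsCoprime m 4 := by
  rw [show (4 : ℤ) = 2 * 2 by norm_num]; exact h.mul_right h

theorem coprime_sq_add_one {Q R : ℤ} (hQ : Q = 2 * R) :
    IsCoprime (Q ^ 2 + 1) ((Q ^ 6 - 1) * (Q ^ 2 - 1)) := by
  have h := coprime_four (m := Q ^ 2 + 1) ⟨1, -2 * R ^ 2, by subst hQ; ring⟩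
  have := h.add_mul_left_right (z := Q ^ 6 - 2 * Q ^ 4 + 2 * Q ^ 2 - 3)
  exact (show (Q ^ 6 - 1) * (Q ^ 2 - 1) = 4 + (Q ^ 2 + 1) * (Q ^ 6 - 2 * Q ^ 4 + 2 * Q ^ 2 - 3) by
    ring) ▸ this

theorem coprime_sq_sub {Q R : ℤ} (hQ : Q = 2 * R) :
    IsCoprime (Q ^ 2 - Q - 1) ((Q ^ 6 - 1) * (Q ^ 2 - 1)) := by
  have h4 := coprime_four (m := Q ^ 2 - Q - 1) ⟨-1, 2 * R ^ 2 - R, by subst hQ; ring⟩
  have hq : IsCoprime (Q ^ 2 - Q - 1) Q := ⟨-1, Q - 1, by ring⟩
  have hl : IsCoprime (Q ^ 2 - Q - 1) (2 * Q + 1) := ⟨-4, 2 * Q - 3, by ring⟩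
  have := ((h4.mul_right hq).mul_right hl).add_mul_left_right
    (z := Q ^ 6 + Q ^ 5 + Q ^ 4 + 2 * Q ^ 3 + 3 * Q ^ 2 + 5 * Q - 1)
  exact (show (Q ^ 6 - 1) * (Q ^ 2 - 1) = 4 * Q * (2 * Q + 1) + (Q ^ 2 - Q - 1) *
    (Q ^ 6 + Q ^ 5 + Q ^ 4 + 2 * Q ^ 3 + 3 * Q ^ 2 + 5 * Q - 1) by ring) ▸ this

theorem coprime_sq_add {Q R : ℤ} (hQ : Q = 2 * R) :
    IsCoprime (Q ^ 2 + Q - 1) ((Q ^ 6 - 1) * (Q ^ 2 - 1)) := by
  have h4 := coprime_four (m := Q ^ 2 + Q - 1) ⟨-1, 2 * R ^ 2 + R, by subst hQ; ring⟩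
  have hq : IsCoprime (Q ^ 2 + Q - 1) Q := ⟨-1, Q + 1, by ring⟩
  have hl : IsCoprime (Q ^ 2 + Q - 1) (2 * Q - 1) := ⟨-4, 2 * Q + 3, by ring⟩
  have := ((h4.mul_right hq).mul_right hl).add_mul_left_right
    (z := Q ^ 6 - Q ^ 5 + Q ^ 4 - 2 * Q ^ 3 + 3 * Q ^ 2 - 5 * Q - 1)
  exact (show (Q ^ 6 - 1) * (Q ^ 2 - 1) = 4 * Q * (2 * Q - 1) + (Q ^ 2 + Q - 1) *
    (Q ^ 6 - Q ^ 5 + Q ^ 4 - 2 * Q ^ 3 + 3 * Q ^ 2 - 5 * Q - 1) by ring) ▸ this

theorem prod_dvd_of_count {K : Type*} [Field K] [DecidableEq K] {s : Multiset K} {e M : ℕ}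
    (hr : ∀ x ∈ s, x ^ M = 1) (he : ∀ x, s.count x ≤ e) :
    (s.map fun x => X - C x).prod ∣ (X ^ M - 1 : K[X]) ^ e := by
  have hdvd : ∏ x ∈ s.toFinset, (X - C x) ∣ (X ^ M - 1 : K[X]) := by
    refine Finset.prod_dvd_of_coprime (fun i _ j _ hij => pairwise_coprime_X_sub_C Function.injective_id hij)
      fun x hx => ?_
    rw [dvd_iff_isRoot, IsRoot.def]
    simp [hr x (Multiset.mem_toFinset.1 hx)]
  refine dvd_trans ?_ (pow_dvd_pow_of_dvd hdvd e)
  rw [Finset.prod_multiset_map_count, ← Finset.prod_pow]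
  exact Finset.prod_dvd_prod_of_dvd _ _ fun x _ => pow_dvd_pow _ (he x)

theorem pow_eq_one_of_charpoly {K : Type*} [Field K] [CharP K 2] [DecidableEq K]
    {g : Matrix (Fin 6) (Fin 6) K} {s : Multiset K} (hg : g.charpoly = (s.map fun x => X - C x).prod)
    {j M : ℕ} (hM : 0 < M) (hr : ∀ x ∈ s, x ^ M = 1) (he : ∀ x, s.count x ≤ 2 ^ j) :
    g ^ (M * 2 ^ j) = 1 := by
  obtain ⟨p, hp⟩ := prod_dvd_of_count hr he
  haveI : CharP (Matrix (Fin 6) (Fin 6) K) 2 := Matrix.charP 2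
  haveI : Fact (Nat.Prime 2) := ⟨Nat.prime_two⟩
  have h := congrArg (aeval g) hp
  rw [← hg, map_mul, Matrix.aeval_self_charpoly, zero_mul, map_pow, map_sub, map_pow, aeval_X, map_one,
    sub_pow_char_pow_of_commute _ _ (Commute.one_right _), one_pow, ← pow_mul, sub_eq_zero] at h
  exact h

section
variable {K : Type*} [Field K] [CharP K 2]

theorem units_eq_one_of_sq {a : Kˣ} (h : a ^ (2 : ℤ) = 1) : a = 1 := by
  have h1 : ((a : K) - 1) ^ 2 = 0 := by
    have h' : (a : K) ^ 2 = 1 := by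
      rw [zpow_two] at h
      rw [sq, ← Units.val_mul, h, Units.val_one]
    linear_combination h' + (1 - (a : K)) * two_zero (K := K)
  exact Units.ext (sub_eq_zero.1 (eq_zero_of_pow_eq_zero h1))

theorem eq_one_of_self_inv {a : Kˣ} (h : a = a⁻¹) : a = 1 := by
  refine units_eq_one_of_sq ?_
  rw [zpow_two]; nth_rw 2 [h]; exact mul_inv_cancel a

theorem mem_St {a b c : Kˣ} {x : Kˣ} (h : (x : K) ∈ St a b c) :
    x = a ∨ x = a⁻¹ ∨ x = b ∨ x = b⁻¹ ∨ x = c ∨ x = c⁻¹ := by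
  simp only [St, Multiset.insert_eq_cons, Multiset.mem_add, Multiset.mem_cons,
    Multiset.mem_singleton] at h
  rcases h with (h | h) | (h | h) | (h | h) <;> replace h := Units.ext h <;> tauto

theorem self_mem_St (a b c : Kˣ) : (a : K) ∈ St a b c ∧ (b : K) ∈ St a b c ∧ (c : K) ∈ St a b c := by
  simp [St]

theorem St_swap_left (a b c : Kˣ) : St a b c = St b a c := by
  simp only [St]; exact add_left_comm _ _ _

theorem St_swap_right (a b c : Kˣ) : St a b c = St a c b := by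
  simp only [St]; rw [add_comm ({(b : K), _} : Multiset K)]

theorem St_inv_left (a b c : Kˣ) : St a⁻¹ b c = St a b c := by
  simp only [St, inv_inv, Multiset.insert_eq_cons]
  rw [← Multiset.singleton_add, ← Multiset.singleton_add ((a : Kˣ) : K)]
  rw [add_comm ({((a⁻¹ : Kˣ) : K)} : Multiset K)]

theorem pow_St {a b c : Kˣ} {M : ℕ} (ha : a ^ M = 1) (hb : b ^ M = 1) (hc : c ^ M = 1) :
    ∀ x ∈ St a b c, x ^ M = 1 := by
  intro x hx
  simp only [St, Multiset.insert_eq_cons, Multiset.mem_add, Multiset.mem_cons,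
    Multiset.mem_singleton] at hx
  rcases hx with (rfl | rfl) | (rfl | rfl) | (rfl | rfl) <;>
    simp [← Units.val_pow_eq_pow_val, inv_pow, ha, hb, hc]

/-- The admissible exponents. -/
def goals (q : ℕ) : Set ℕ :=
  {8, 12, 2 * (q + 1), 2 * (q - 1), q ^ 2 - 1, q ^ 2 + q + 1, q ^ 2 - q + 1}

variable [DecidableEq K] {g : Matrix (Fin 6) (Fin 6) K} {q : ℕ} {a b c : Kˣ}

/-- The data of the eigenvalues of an element defined over the field with `q` elements. -/
structure Dat (g : Matrix (Fin 6) (Fin 6) K) (q : ℕ) (a b c : Kˣ) : Prop where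
  prod : a * b * c = 1
  char : g.charpoly = ((St a b c).map fun x => X - C x).prod
  frob : ∀ x : Kˣ, (x : K) ∈ St a b c → ((x ^ (q : ℤ) : Kˣ) : K) ∈ St a b c
  inj : ∀ x : Kˣ, x ^ (q : ℤ) = 1 → x = 1
  ord : ∀ x : Kˣ, (x : K) ∈ St a b c → x ^ (((q : ℤ) ^ 6 - 1) * ((q : ℤ) ^ 2 - 1)) = 1
  four : 4 ≤ q
  even : Even q

theorem Dat.cancel (d : Dat g q a b c) {x y : Kˣ} (h : x ^ (q : ℤ) = y ^ (q : ℤ)) : x = y := by
  refine mul_inv_eq_one.1 (d.inj _ ?_)
  rw [mul_zpow, _root_.inv_zpow, h, mul_inv_cancel]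

theorem Dat.swap_left (d : Dat g q a b c) : Dat g q b a c :=
  have e := St_swap_left a b c
  ⟨by rw [mul_comm b a]; exact d.prod, e ▸ d.char, e ▸ d.frob, d.inj, e ▸ d.ord, d.four, d.even⟩

theorem Dat.swap_right (d : Dat g q a b c) : Dat g q a c b :=
  have e := St_swap_right a b c
  ⟨by rw [mul_right_comm]; exact d.prod, e ▸ d.char, e ▸ d.frob, d.inj, e ▸ d.ord, d.four, d.even⟩

theorem Dat.finish (d : Dat g q a b c) {j M n : ℕ} (hM : 0 < M) (ha : a ^ M = 1) (hb : b ^ M = 1)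
    (hcount : ∀ x, (St a b c).count x ≤ 2 ^ j) (hn : n ∈ goals q) (hMn : M * 2 ^ j = n) :
    ∃ m ∈ goals q, g ^ m = 1 := by
  have hc : c ^ M = 1 := by
    have := congrArg (· ^ M) d.prod
    simpa [mul_pow, ha, hb] using this
  exact ⟨n, hn, hMn ▸ pow_eq_one_of_charpoly d.char hM (pow_St ha hb hc) hcount⟩

theorem pow_of_zpow_eq_self {x : Kˣ} {q : ℕ} (hq : 1 ≤ q) (h : x ^ (q : ℤ) = x) : x ^ (q - 1) = 1 := by
  rw [zpow_natCast] at h
  rw [pow_sub _ hq, pow_one, h, mul_inv_cancel]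

theorem pow_of_zpow_eq_inv {x : Kˣ} {q : ℕ} (h : x ^ (q : ℤ) = x⁻¹) : x ^ (q + 1) = 1 := by
  rw [zpow_natCast] at h
  rw [pow_succ, h, inv_mul_cancel]

/-- The case of a pair of ones. -/
theorem Dat.case_one (d : Dat g q a b c) (h1 : a = 1) : ∃ m ∈ goals q, g ^ m = 1 := by
  subst h1
  have habc := d.prod
  rw [one_mul] at habc
  obtain rfl : c = b⁻¹ := eq_inv_of_mul_eq_one_right habc
  rcases eq_or_ne b 1 with rfl | hb
  · exact d.finish (j := 3) one_pos (one_pow _) (one_pow _)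
      (fun x => (Multiset.count_le_card _ _).trans (by simp [St])) (n := 8) (by simp [goals]) rfl
  have hbb : b ≠ b⁻¹ := fun h => hb (eq_one_of_self_inv h)
  have e2 : (b : K) ≠ 1 := fun h => hb (Units.ext h)
  have e3 : ((b⁻¹ : Kˣ) : K) ≠ 1 := fun h => hb (inv_eq_one.1 (Units.ext h))
  have e4 : (b : K) ≠ ((b⁻¹ : Kˣ) : K) := fun h => hbb (Units.ext h)
  have hcount : ∀ x, (St 1 b b⁻¹).count x ≤ 2 ^ 1 := fun x => by
    simp only [St, inv_inv, inv_one, Units.val_one, Multiset.insert_eq_cons, Multiset.count_add,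
      Multiset.count_cons, Multiset.count_singleton]
    split_ifs <;> simp_all
  have key : b ^ (q : ℤ) = b ∨ b ^ (q : ℤ) = b⁻¹ := by
    rcases mem_St (d.frob b (self_mem_St _ _ _).2.1) with h | h | h | h | h | h
    · exact absurd (d.inj _ h) hb
    · exact absurd (d.inj _ (h.trans inv_one)) hb
    · exact Or.inl h
    · exact Or.inr h
    · exact Or.inr h
    · exact Or.inl (h.trans (inv_inv b))
  have := d.four
  rcases key with h | h
  · exact d.finish (j := 1) (M := q - 1) (by omega) (one_pow _) (pow_of_zpow_eq_self (by omega) h)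
      hcount (n := 2 * (q - 1)) (by simp [goals]) (mul_comm _ _)
  · exact d.finish (j := 1) (M := q + 1) (by omega) (one_pow _) (pow_of_zpow_eq_inv h)
      hcount (n := 2 * (q + 1)) (by simp [goals]) (mul_comm _ _)

/-- The case of a repeated eigenvalue different from one. -/
theorem Dat.case_double (d : Dat g q a b c) (hab : a = b) (ha : a ≠ 1) :
    ∃ m ∈ goals q, g ^ m = 1 := by
  subst hab
  obtain rfl : c = (a * a)⁻¹ := eq_inv_of_mul_eq_one_right d.prod
  have := d.four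
  have hne : (a : K) ≠ ((a⁻¹ : Kˣ) : K) := fun h => ha (eq_one_of_self_inv (Units.ext h))
  rcases eq_or_ne (a ^ (3 : ℕ)) 1 with h3 | h3
  · refine d.finish (j := 2) (M := 3) (by omega) h3 h3 (fun x => ?_) (n := 12) (by simp [goals]) rfl
    have e : (a * a)⁻¹ = a := inv_eq_of_mul_eq_one_left (by rw [← h3, pow_three])
    rw [e]
    simp only [St, Multiset.insert_eq_cons, Multiset.count_add, Multiset.count_cons,
      Multiset.count_singleton]
    split_ifs <;> simp_all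
  have n1 : (a : K) ≠ ((a * a : Kˣ) : K) := fun h =>
    ha (mul_left_cancel (a := a) (by rw [mul_one]; exact (Units.ext h).symm))
  have n2 : (a : K) ≠ (((a * a)⁻¹ : Kˣ) : K) := fun h => h3 (by
    have := Units.ext h
    rw [pow_succ, pow_two]; nth_rw 3 [this]; exact mul_inv_cancel _)
  have n3 : ((a⁻¹ : Kˣ) : K) ≠ ((a * a : Kˣ) : K) := fun h => h3 (by
    have := Units.ext h
    rw [pow_succ, pow_two, ← this, inv_mul_cancel])
  have n4 : ((a⁻¹ : Kˣ) : K) ≠ (((a * a)⁻¹ : Kˣ) : K) := fun h =>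
    n1 (congrArg Units.val (inv_injective (Units.ext h)))
  have n5 : ((a * a : Kˣ) : K) ≠ (((a * a)⁻¹ : Kˣ) : K) := fun h =>
    ha (units_eq_one_of_sq (by rw [zpow_two]; exact eq_one_of_self_inv (Units.ext h)))
  have hcount : ∀ x, (St a a (a * a)⁻¹).count x ≤ 2 ^ 1 := fun x => by
    simp only [St, inv_inv, Multiset.insert_eq_cons, Multiset.count_add,
      Multiset.count_cons, Multiset.count_singleton]
    split_ifs <;> simp_all
  have key : a ^ (q : ℤ) = a ∨ a ^ (q : ℤ) = a⁻¹ := by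
    by_contra hcon
    push Not at hcon
    have hmem : ∀ x : Kˣ, (x : K) ∈ St a a (a * a)⁻¹ →
        ∃ k : ℤ, (k = 1 ∨ k = -1 ∨ k = 2 ∨ k = -2) ∧ x = a ^ k := fun x hx => by
      rcases mem_St hx with e | e | e | e | e | e
      · exact ⟨1, by norm_num, by rw [e, zpow_one]⟩
      · exact ⟨-1, by norm_num, by rw [e, zpow_neg_one]⟩
      · exact ⟨1, by norm_num, by rw [e, zpow_one]⟩
      · exact ⟨-1, by norm_num, by rw [e, zpow_neg_one]⟩
      · exact ⟨-2, by norm_num, by rw [e]; group⟩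
      · exact ⟨2, by norm_num, by rw [e]; group⟩
    have h3' : a ^ (3 : ℤ) ≠ 1 := fun h => h3 (by rwa [← zpow_natCast])
    have h6 : a ^ (6 : ℤ) ≠ 1 := fun h => h3' (units_eq_one_of_sq (by rw [← _root_.zpow_mul]; exact h))
    have h2' : a ^ (2 : ℤ) ≠ 1 := fun h => ha (units_eq_one_of_sq h)
    obtain ⟨k, hk, hkq⟩ := hmem _ (d.frob a (self_mem_St _ _ _).1)
    have hk2 : k = 2 ∨ k = -2 := by
      rcases hk with rfl | rfl | h | h
      · exact absurd (hkq.trans (zpow_one a)) hcon.1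
      · exact absurd (hkq.trans (zpow_neg_one a)) hcon.2
      · exact Or.inl h
      · exact Or.inr h
    obtain ⟨l, hl, hlq⟩ := hmem _ (d.frob (a * a) (by simp [St]))
    have he : a ^ (2 * k - l) = 1 := by
      rw [zpow_sub, ← hlq, mul_zpow, hkq, ← zpow_add, two_mul, mul_inv_cancel]
    have h5 : a ^ (5 : ℤ) = 1 := by
      rcases hk2 with rfl | rfl <;> rcases hl with rfl | rfl | rfl | rfl <;>
        norm_num at he <;>
        (try simp only [_root_.zpow_neg, inv_eq_one] at he) <;>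
        first | exact he | exact absurd he h3' | exact absurd he h6 | exact absurd he h2'
    have hsq : a ^ ((q : ℤ) ^ 2 + 1) = 1 := by
      rw [zpow_add, zpow_one, sq, _root_.zpow_mul, hkq, ← _root_.zpow_mul, mul_comm k,
        _root_.zpow_mul, hkq, ← _root_.zpow_mul, ← zpow_add_one]
      rcases hk2 with rfl | rfl <;> norm_num <;> exact h5
    obtain ⟨R, hR⟩ := d.even
    exact ha (eq_one_of_coprime (coprime_sq_add_one (Q := (q : ℤ)) (R := R)
      (by rw [hR]; push_cast; ring)) hsq (d.ord a (self_mem_St _ _ _).1))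
  rcases key with h | h
  · have ha' := pow_of_zpow_eq_self (by omega) h
    exact d.finish (j := 1) (M := q - 1) (by omega) ha' ha' hcount (n := 2 * (q - 1))
      (by simp [goals]) (mul_comm _ _)
  · have ha' := pow_of_zpow_eq_inv h
    exact d.finish (j := 1) (M := q + 1) (by omega) ha' ha' hcount (n := 2 * (q + 1))
      (by simp [goals]) (mul_comm _ _)

/-- Six distinct eigenvalues. -/
theorem Dat.case_distinct (d : Dat g q a b c) (n1 : a ≠ 1 ∧ b ≠ 1 ∧ c ≠ 1)
    (n2 : a ≠ b ∧ a ≠ b⁻¹ ∧ a ≠ c ∧ a ≠ c⁻¹ ∧ b ≠ c ∧ b ≠ c⁻¹) :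
    ∃ m ∈ goals q, g ^ m = 1 := by
  have hq := d.four
  have hz : ∀ {x : Kˣ} {m : ℕ}, x ^ (m : ℤ) = 1 → x ^ m = 1 := fun h => by rwa [zpow_natCast] at h
  obtain ⟨R, hR⟩ := d.even
  have hQ : ((q : ℤ)) = 2 * (R : ℤ) := by rw [hR]; push_cast; ring
  obtain ⟨h1, h2, h3⟩ := n1
  obtain ⟨hab, hab', hac, hac', hbc, hbc'⟩ := n2
  have hself : ∀ {x : Kˣ}, x ≠ 1 → x ≠ x⁻¹ := fun hx h => hx (eq_one_of_self_inv h)
  have hcount : ∀ x, (St a b c).count x ≤ 2 ^ 0 := by
    intro x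
    rw [pow_zero]
    refine Multiset.nodup_iff_count_le_one.1 ?_ x
    simp only [St, Multiset.insert_eq_cons, Multiset.nodup_add, Multiset.nodup_cons,
      Multiset.nodup_singleton, Multiset.mem_singleton, Multiset.disjoint_left, Multiset.mem_add,
      Multiset.mem_cons]
    have i1 := hself h1; have i2 := hself h2; have i3 := hself h3
    have hv : ∀ {x y : Kˣ}, (x : K) = y ↔ x = y := Units.val_inj
    simp only [hv]
    grind [inv_inv, inv_inj]
  have sq_case : ∀ x : Kˣ, x ^ (q : ℤ) = x ∨ x ^ (q : ℤ) = x⁻¹ → x ^ ((q : ℤ) ^ 2 - 1) = 1 := by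
    rintro x (h | h) <;> rw [zpow_sub, zpow_one, sq, _root_.zpow_mul, h]
    · rw [h, mul_inv_cancel]
    · rw [_root_.inv_zpow, h, inv_inv, mul_inv_cancel]
  have hfin : ∀ {n : ℕ}, 0 < n → n ∈ goals q → a ^ n = 1 → b ^ n = 1 → ∃ m ∈ goals q, g ^ m = 1 :=
    fun hn hg ha hb => d.finish (j := 0) hn ha hb hcount hg (mul_one _)
  have hle : q ≤ q ^ 2 := by nlinarith
  have hpos : 0 < q ^ 2 - 1 := by omega
  have hc' : c = (a * b)⁻¹ := eq_inv_of_mul_eq_one_right d.prod
  have ha' := mem_St (d.frob a (self_mem_St a b c).1)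
  have hb' := mem_St (d.frob b (self_mem_St a b c).2.1)
  have hc'' := mem_St (d.frob c (self_mem_St a b c).2.2)
  -- `a` fixed up to inversion
  by_cases hA : a ^ (q : ℤ) = a ∨ a ^ (q : ℤ) = a⁻¹
  · refine hfin hpos (by simp [goals]) (hz ?_) (hz ?_)
    · rw [Nat.cast_sub (by omega), Nat.cast_pow, Nat.cast_one]; exact sq_case a hA
    · rw [Nat.cast_sub (by omega), Nat.cast_pow, Nat.cast_one]
      have notX : ∀ f x : Kˣ, f ^ (q : ℤ) = f ∨ f ^ (q : ℤ) = f⁻¹ → x ≠ f → x ≠ f⁻¹ →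
          x ^ (q : ℤ) ≠ f ∧ x ^ (q : ℤ) ≠ f⁻¹ := by
        intro f x hf x1 x2
        rcases hf with h | h
        · exact ⟨fun e => x1 (d.cancel (e.trans h.symm)),
            fun e => x2 (d.cancel (by rw [e, _root_.inv_zpow, h]))⟩
        · exact ⟨fun e => x2 (d.cancel (by rw [e, _root_.inv_zpow, h, inv_inv])),
            fun e => x1 (d.cancel (e.trans h.symm))⟩
      have bA := notX a b hA hab.symm (fun e => hab' (by rw [e, inv_inv]))
      have cA := notX a c hA hac.symm (fun e => hac' (by rw [e, inv_inv]))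
      have goal_of : b ^ ((q : ℤ) ^ 2) = b ∨ b ^ ((q : ℤ) ^ 2) = b⁻¹ → b ^ ((q : ℤ) ^ 2 - 1) = 1 := by
        rintro (e | e)
        · rw [zpow_sub, zpow_one, e, mul_inv_cancel]
        · refine absurd (eq_one_of_coprime (coprime_sq_add_one hQ) ?_ (d.ord b (self_mem_St a b c).2.1)) h2
          rw [zpow_add, zpow_one, e, inv_mul_cancel]
      rcases hb' with h | h | h | h | h | h
      · exact absurd h bA.1
      · exact absurd h bA.2
      · exact sq_case b (Or.inl h)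
      · exact sq_case b (Or.inr h)
      all_goals
        refine goal_of ?_
        rw [sq, _root_.zpow_mul, h]
        try rw [_root_.inv_zpow]
        rcases hc'' with e | e | e | e | e | e
        · exact absurd e cA.1
        · exact absurd e cA.2
        · simp [e]
        · simp [e]
        · have nb := notX c b (Or.inl e) hbc hbc'
          first | exact absurd h nb.1 | exact absurd h nb.2
        · have nb := notX c b (Or.inr e) hbc hbc'
          first | exact absurd h nb.1 | exact absurd h nb.2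
  -- `a` moved
  suffices H : ∀ b c : Kˣ, Dat g q a b c → (a ^ (q : ℤ) = b ∨ a ^ (q : ℤ) = b⁻¹) → a ≠ b → a ≠ b⁻¹ →
      b ≠ 1 → a ^ (q ^ 2 - 1) = 1 ∨ a ^ (q ^ 2 + q + 1) = 1 ∨ a ^ (q ^ 2 - q + 1) = 1 by
    have key : ∀ b' c' : Kˣ, Dat g q a b' c' → (a ^ (q : ℤ) = b' ∨ a ^ (q : ℤ) = b'⁻¹) → a ≠ b' →
        a ≠ b'⁻¹ → b' ≠ 1 → ∃ n, 0 < n ∧ n ∈ goals q ∧ a ^ n = 1 ∧ b' ^ n = 1 := by
      intro b' c' d' hb e1 e2 e3
      have hb1 : ∀ n : ℕ, a ^ n = 1 → b' ^ n = 1 := by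
        intro n hn
        have : (a ^ (q : ℤ)) ^ n = 1 := by
          rw [← zpow_natCast, ← _root_.zpow_mul, mul_comm, _root_.zpow_mul, zpow_natCast a n, hn, one_zpow]
        rcases hb with h | h <;> rw [h] at this
        · exact this
        · rwa [inv_pow, inv_eq_one] at this
      rcases H b' c' d' hb e1 e2 e3 with h | h | h
      · exact ⟨_, hpos, by simp [goals], h, hb1 _ h⟩
      · exact ⟨_, by omega, by simp [goals], h, hb1 _ h⟩
      · exact ⟨_, by omega, by simp [goals], h, hb1 _ h⟩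
    rcases ha' with h | h | h | h | h | h
    · exact absurd (Or.inl h) hA
    · exact absurd (Or.inr h) hA
    · obtain ⟨n, e1, e2, e3, e4⟩ := key b c d (Or.inl h) hab hab' h2; exact hfin e1 e2 e3 e4
    · obtain ⟨n, e1, e2, e3, e4⟩ := key b c d (Or.inr h) hab hab' h2; exact hfin e1 e2 e3 e4
    all_goals
      obtain ⟨n, e1, e2, e3, e4⟩ := key c b d.swap_right (by first | exact Or.inl h | exact Or.inr h)
        hac hac' h3
      refine hfin e1 e2 e3 ?_
      have := congrArg (· ^ n) d.prod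
      simpa [mul_pow, e3, e4] using this
  intro b c d hb hab hab' hb1
  have hc : c = (a * b)⁻¹ := eq_inv_of_mul_eq_one_right d.prod
  have hb2 := mem_St (d.frob b (self_mem_St a b c).2.1)
  have haa : a ≠ a⁻¹ := hself h1
  have conv : ∀ {n : ℕ} {m : ℤ}, (n : ℤ) = m → a ^ m = 1 → a ^ n = 1 := fun e h => hz (e ▸ h)
  have c1 : ((q ^ 2 - 1 : ℕ) : ℤ) = (q : ℤ) ^ 2 - 1 := by
    rw [Nat.cast_sub (by omega)]; push_cast; ring
  have c2 : ((q ^ 2 + q + 1 : ℕ) : ℤ) = (q : ℤ) ^ 2 + q + 1 := by push_cast; ring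
  have c3 : ((q ^ 2 - q + 1 : ℕ) : ℤ) = (q : ℤ) ^ 2 - q + 1 := by
    rw [Nat.cast_add, Nat.cast_sub hle]; push_cast; ring
  have hN := d.ord a (self_mem_St a b c).1
  have kill : ∀ {m : ℤ}, IsCoprime m (((q : ℤ) ^ 6 - 1) * ((q : ℤ) ^ 2 - 1)) → a ^ m ≠ 1 :=
    fun hco h => h1 (eq_one_of_coprime hco h hN)
  have tofix : ∀ e : a ^ (q : ℤ) = a ∨ a ^ (q : ℤ) = a⁻¹, False := fun e => hA e
  rcases hb with hb | hb
  · subst hb
    have hbq : (a ^ (q : ℤ)) ^ (q : ℤ) = a ^ ((q : ℤ) ^ 2) := by rw [← _root_.zpow_mul, sq]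
    rw [hbq] at hb2
    subst hc
    rcases hb2 with h | h | h | h | h | h
    · exact Or.inl (conv c1 (by rw [zpow_sub, h, zpow_one, mul_inv_cancel]))
    · exact absurd (by rw [zpow_add, h, zpow_one, inv_mul_cancel]) (kill (coprime_sq_add_one hQ))
    · exact (tofix (Or.inl (d.cancel (hbq.trans h)))).elim
    · exact (tofix (Or.inr (d.cancel (by rw [hbq, h, _root_.inv_zpow])))).elim
    · refine Or.inr (Or.inl (conv c2 ?_))
      rw [zpow_add, zpow_add, h, zpow_one]; group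
    · refine absurd ?_ (kill (coprime_sq_sub hQ))
      rw [zpow_sub, zpow_sub, h, zpow_one]; group
  · obtain rfl : b = (a ^ (q : ℤ))⁻¹ := by rw [hb, inv_inv]
    have hbq : ((a ^ (q : ℤ))⁻¹) ^ (q : ℤ) = (a ^ ((q : ℤ) ^ 2))⁻¹ := by
      rw [_root_.inv_zpow, ← _root_.zpow_mul, sq]
    rw [hbq] at hb2
    subst hc
    simp only [inv_eq_iff_eq_inv, inv_inv] at hb2
    rcases hb2 with h | h | h | h | h | h
    · exact absurd (by rw [zpow_add, h, zpow_one, inv_mul_cancel]) (kill (coprime_sq_add_one hQ))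
    · exact Or.inl (conv c1 (by rw [zpow_sub, h, zpow_one, mul_inv_cancel]))
    · exact (tofix (Or.inl (d.cancel (by rw [← _root_.zpow_mul, ← sq, h])))).elim
    · exact (tofix (Or.inr (d.cancel (by rw [← _root_.zpow_mul, ← sq, h, _root_.inv_zpow])))).elim
    · refine absurd ?_ (kill (coprime_sq_add hQ))
      rw [zpow_sub, zpow_add, h, zpow_one]; group
    · refine Or.inr (Or.inr (conv c3 ?_))
      rw [zpow_add, zpow_sub, h, zpow_one]; group

/-- The element is killed by one of the admissible exponents. -/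
theorem Dat.exists_goal (d : Dat g q a b c) : ∃ m ∈ goals q, g ^ m = 1 := by
  have one_of : ∀ {x y z : Kˣ}, x * y * z = 1 → x = y⁻¹ → z = 1 := by
    intro x y z h e; simpa [e] using h
  by_cases h1 : a = 1
  · exact d.case_one h1
  by_cases h2 : b = 1
  · exact d.swap_left.case_one h2
  by_cases h3 : c = 1
  · exact d.swap_right.swap_left.case_one h3
  by_cases e1 : a = b
  · exact d.case_double e1 h1
  by_cases e2 : a = c
  · exact d.swap_right.case_double e2 h1
  by_cases e3 : b = c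
  · exact d.swap_left.swap_right.case_double e3 h2
  refine d.case_distinct ⟨h1, h2, h3⟩ ⟨e1, fun e => h3 (one_of d.prod e), e2,
    fun e => h2 (one_of d.swap_right.prod e), e3, fun e => h1 (one_of d.swap_left.swap_right.prod e)⟩

end

/-- Every element order of `G₂(2^α)` divides one of the admissible exponents. -/
theorem orderOf_dvd_goals {F : Type*} [Field F] [Fintype F] [CharP F 2] {q : ℕ} (hF : Fintype.card F = q)
    (hq : 4 ≤ q) (x : ↥(chevG2.group F)) : ∃ m ∈ goals q, orderOf x ∣ m := by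
  classical
  let K := AlgebraicClosure F
  haveI : CharP K 2 := charP_of_injective_algebraMap (algebraMap F K).injective 2
  obtain ⟨h, rfl⟩ := (equiv F).surjective x
  simp only [MulEquiv.orderOf_eq]
  set f := algebraMap F K
  let gm : GL (Fin 6) F →* GL (Fin 6) K := Matrix.GeneralLinearGroup.map f
  have hy : ∀ r t, gm (yU r t) = yU r (f t) := by
    intro r t
    refine Units.ext (Matrix.ext fun i j => ?_)
    have hi : ∀ z, f (iota F z) = iota K z := fun z => by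
      rw [← RingHom.comp_apply, RingHom.ext_zmod (f.comp (iota F)) (iota K)]
    show f (yMat r t i j) = yMat r (f t) i j
    simp [yMat, mp, Matrix.one_apply, apply_ite f, hi]
  have hk : gm h.1 ∈ H K := by
    refine H_induction (P := fun g => gm g ∈ H K) (by rw [map_one]; exact one_mem _)
      (fun r t g _ ih => ?_) h.2
    rw [map_mul, hy]; exact mul_mem (yU_mem _ _) ih
  obtain ⟨a, b, c, habc, hcp⟩ := exists_eigen hk
  set g : Matrix (Fin 6) (Fin 6) K := (gm h.1).val with hg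
  have hmap : g.charpoly = (h.1 : Matrix (Fin 6) (Fin 6) F).charpoly.map f :=
    Matrix.charpoly_map _ f
  have hmem : ∀ y : K, y ∈ St a b c ↔ g.charpoly.IsRoot y := by
    intro y
    rw [hcp, IsRoot.def, eval_multiset_prod, Multiset.prod_eq_zero_iff, Multiset.map_map]
    simp [sub_eq_zero]
  have hfr : ∀ x : Kˣ, (x : K) ∈ St a b c → ((x ^ (q : ℤ) : Kˣ) : K) ∈ St a b c := by
    intro x hx
    rw [hmem, hmap, IsRoot.def, eval_map, ← aeval_def] at hx ⊢
    rw [zpow_natCast, Units.val_pow_eq_pow_val]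
    have := Polynomial.aeval_algHom_apply (FiniteField.frobeniusAlgHom F K) (x : K)
      (h.1 : Matrix (Fin 6) (Fin 6) F).charpoly
    rw [hx, map_zero, FiniteField.coe_frobeniusAlgHom, hF] at this
    exact this
  have heven : Even q := by
    obtain ⟨n, hp, hn⟩ := FiniteField.card F 2
    exact hF ▸ hn ▸ (Nat.even_pow.2 ⟨even_two, n.pos.ne'⟩)
  have hinj0 : ∀ k : ℕ, ∀ x : Kˣ, x ^ (q ^ k) = 1 → x = 1 := by
    intro k x hx
    obtain ⟨n, hp, hn⟩ := FiniteField.card F 2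
    haveI : Fact (Nat.Prime 2) := ⟨hp⟩
    have e : q ^ k = 2 ^ ((n : ℕ) * k) := by rw [← hF, hn, pow_mul]
    have h0 : ((x : K) - 1) ^ (2 ^ ((n : ℕ) * k)) = 0 := by
      rw [sub_pow_char_pow, one_pow, ← e, ← Units.val_pow_eq_pow_val, hx, Units.val_one, sub_self]
    exact Units.ext (sub_eq_zero.1 (eq_zero_of_pow_eq_zero h0))
  have hord : ∀ x : Kˣ, (x : K) ∈ St a b c →
      x ^ (((q : ℤ) ^ 6 - 1) * ((q : ℤ) ^ 2 - 1)) = 1 := by
    intro x hx
    have hcard : g ^ (q ^ 6 * (q ^ 2 - 1) * (q ^ 6 - 1)) = 1 := by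
      have h1 : h ^ (q ^ 6 * (q ^ 2 - 1) * (q ^ 6 - 1)) = 1 := by
        apply (equiv F).injective
        rw [map_pow, map_one, ← Cfsg.Agent.S1059.result hF]
        exact pow_card_eq_one'
      rw [hg, ← Units.val_pow_eq_pow_val, ← map_pow, ← SubgroupClass.coe_pow, h1]
      simp
    have hev : Module.End.HasEigenvalue (Matrix.toLin' g) (x : K) := by
      rw [← Matrix.charpoly_toLin'] at hmem
      exact Module.End.hasEigenvalue_iff_isRoot_charpoly _ _ |>.2 ((hmem _).1 hx)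
    obtain ⟨v, hv⟩ := hev.exists_hasEigenvector
    have := hv.pow_apply (q ^ 6 * (q ^ 2 - 1) * (q ^ 6 - 1))
    rw [← Matrix.toLin'_pow, hcard, Matrix.toLin'_one, LinearMap.id_apply] at this
    have hxN : x ^ (q ^ 6 * ((q ^ 2 - 1) * (q ^ 6 - 1))) = 1 := by
      refine Units.ext ?_
      rw [Units.val_pow_eq_pow_val, Units.val_one, ← mul_assoc]
      exact (smul_left_injective K hv.2 (this.symm.trans (one_smul K v).symm)).symm ▸ rfl
    rw [mul_comm (q ^ 6), pow_mul] at hxN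
    have h2 := hinj0 6 _ hxN
    rw [← zpow_natCast, Nat.cast_mul, Nat.cast_sub (Nat.one_le_pow _ _ (by omega)),
      Nat.cast_sub (Nat.one_le_pow _ _ (by omega))] at h2
    push_cast at h2
    rwa [mul_comm ((q : ℤ) ^ 6 - 1)]
  have hinj : ∀ x : Kˣ, x ^ (q : ℤ) = 1 → x = 1 := fun x hx => by
    rw [zpow_natCast] at hx
    exact hinj0 1 x (by rwa [pow_one])
  obtain ⟨m, hm, hgm⟩ := Dat.exists_goal (g := g) ⟨habc, hcp, hfr, hinj, hord, hq, heven⟩
  refine ⟨m, hm, ?_⟩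
  rw [← Subgroup.orderOf_coe, orderOf_dvd_iff_pow_eq_one]
  have : gm (h.1 ^ m) = 1 := by
    rw [map_pow]; exact Units.ext (by rw [Units.val_pow_eq_pow_val]; exact hgm)
  exact Units.ext (Matrix.map_injective f.injective
    ((congrArg Units.val this).trans (Matrix.map_one _ (map_zero f) (map_one f)).symm))

end Cfsg.Agent.H66.G2Two
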