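import Cfsg.Agent.G2Singer.Hom

/-!
Tables for the six-dimensional module of `G₂` in characteristic two (owner: helper66).
Coordinates: short roots `9, 8, 7, 4, 3, 2`, in this order.
-/

set_option autoImplicit false

namespace Cfsg.Agent.H66.G2Two

open Cfsg.Lie Matrix
open Cfsg.Agent.G2Singer (I xP coeffP)

abbrev M6 : Type := Matrix (Fin 6) (Fin 6) (ZMod 2)

/-- Matrix over `ZMod 2` with ones at the listed positions. -/
def ofEnt (l : List (Fin 6 × Fin 6)) : M6 :=
  Matrix.of fun i j => if (i, j) ∈ l then 1 else 0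

/-- Index of a coordinate. -/
def idxI : I → ℕ := Sum.elim (fun i => i.val) fun r => 2 + r.val

/-- Linear coefficient of the root elements. -/
def ent1 (r : Fin 12) : List (Fin 6 × Fin 6) :=
  List.getD
    [[(4, 0), (5, 1)],
     [(3, 0), (5, 2)],
     [(3, 1), (4, 2)],
     [(2, 0), (5, 3)],
     [(1, 0), (5, 4)],
     [(2, 1), (4, 3)],
     [(1, 2), (3, 4)],
     [(0, 1), (4, 5)],
     [(0, 2), (3, 5)],
     [(1, 3), (2, 4)],
     [(0, 3), (2, 5)],
     [(0, 4), (1, 5)]]
    r.val []

/-- Quadratic coefficient of the root elements. -/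
def ent2 (r : Fin 12) : List (Fin 6 × Fin 6) :=
  List.getD
    [[],
     [],
     [(5, 0)],
     [(4, 1)],
     [(3, 2)],
     [],
     [],
     [(2, 3)],
     [(1, 4)],
     [(0, 5)],
     [],
     []]
    r.val []

/-- Coefficient of `t ^ k` in the root element of `r`. -/
def cM (r : Fin 12) : Fin 3 → M6 := ![1, ofEnt (ent1 r), ofEnt (ent2 r)]

/-- Positions of the basis of the Lie algebra inside the matrices. -/
def eL : I → List (Fin 6 × Fin 6) :=
  Sum.elim (fun i => List.getD [[(0, 0), (1, 1), (4, 4), (5, 5)], [(1, 1), (2, 2), (3, 3), (4, 4)]] i.val []) ent1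

/-- Basis of the Lie algebra inside the matrices. -/
def eM (b : I) : M6 := ofEnt (eL b)

/-- Positions giving the coordinates on `eM`. -/
def pos (a : I) : List (Fin 6 × Fin 6) :=
  List.getD
    [[(0, 0)],
     [(0, 0), (1, 1)],
     [(4, 0)],
     [(3, 0)],
     [(3, 1)],
     [(2, 0)],
     [(1, 0)],
     [(2, 1)],
     [(1, 2)],
     [(0, 1)],
     [(0, 2)],
     [(1, 3)],
     [(0, 3)],
     [(0, 4)]]
    (idxI a) []

/-- Certificates that the centralizer of all `eM` is scalar. -/
def cert : Fin 6 → Fin 6 → List (I × Fin 6 × Fin 6) :=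
  ![![[],
      [(.inl 1, 0, 1)],
      [(.inl 0, 0, 2)],
      [(.inl 0, 0, 3)],
      [(.inl 1, 0, 4)],
      [(.inr 0, 0, 1)]],
    ![[(.inl 1, 1, 0)],
      [(.inr 1, 3, 0), (.inr 2, 3, 1)],
      [(.inl 0, 1, 2)],
      [(.inl 0, 1, 3)],
      [(.inr 0, 1, 0)],
      [(.inl 1, 1, 5)]],
    ![[(.inl 0, 2, 0)],
      [(.inl 0, 2, 1)],
      [(.inr 0, 5, 1), (.inr 1, 3, 0), (.inr 1, 5, 2), (.inr 2, 3, 1)],
      [(.inr 1, 2, 0)],
      [(.inl 0, 2, 4)],
      [(.inl 0, 2, 5)]],
    ![[(.inl 0, 3, 0)],
      [(.inl 0, 3, 1)],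
      [(.inr 3, 3, 0)],
      [(.inr 1, 3, 0)],
      [(.inl 0, 3, 4)],
      [(.inl 0, 3, 5)]],
    ![[(.inl 1, 4, 0)],
      [(.inr 4, 4, 0)],
      [(.inl 0, 4, 2)],
      [(.inl 0, 4, 3)],
      [(.inr 0, 4, 0)],
      [(.inl 1, 4, 5)]],
    ![[(.inr 7, 4, 0)],
      [(.inl 1, 5, 1)],
      [(.inl 0, 5, 2)],
      [(.inl 0, 5, 3)],
      [(.inl 1, 5, 4)],
      [(.inr 0, 5, 1), (.inr 1, 3, 0), (.inr 2, 3, 1)]]]

/-- Coefficient of `X m n` in the commutator entries of a list. -/
def coef (L : List (I × Fin 6 × Fin 6)) (m n : Fin 6) : ZMod 2 :=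
  (L.map fun x => (if x.2.1 = m then eM x.1 n x.2.2 else 0) +
    (if x.2.2 = n then eM x.1 x.2.1 m else 0)).sum

theorem cert_ok : ∀ i j m n : Fin 6,
    coef (cert i j) m n = (if m = i ∧ n = j then 1 else 0) +
      (if i = j then (if m = 0 ∧ n = 0 then 1 else 0) else 0) := by
  decide +kernel

theorem coord_eM : ∀ a b : I,
    ((pos a).map fun p => eM b p.1 p.2).sum = if a = b then 1 else 0 := by
  decide +kernel

theorem cM_inv : ∀ r : Fin 12, cM r 1 * cM r 1 = 0 ∧
    cM r 1 * cM r 2 + cM r 2 * cM r 1 = 0 ∧ cM r 2 * cM r 2 = 0 := by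
  decide +kernel

/-! ### Matrices as lists of positions -/

/-- The matrix of a list of positions, counted with multiplicity. -/
def cnt (l : List (Fin 6 × Fin 6)) : M6 := (l.map fun p => Matrix.single p.1 p.2 1).sum

/-- The list of a product. -/
def join (l m : List (Fin 6 × Fin 6)) : List (Fin 6 × Fin 6) :=
  l.flatMap fun p => (m.filter fun x => x.1 == p.2).map fun x => (p.1, x.2)

/-- The parities of a list, packed. -/
def code : List (Fin 6 × Fin 6) → ℕ
  | [] => 0
  | p :: l => Nat.xor (2 ^ (6 * p.1.val + p.2.val)) (code l)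

theorem cnt_append (l m : List (Fin 6 × Fin 6)) : cnt (l ++ m) = cnt l + cnt m := by
  simp [cnt]

theorem cnt_join (l m : List (Fin 6 × Fin 6)) : cnt (join l m) = cnt l * cnt m := by
  induction l with
  | nil => simp [cnt, join]
  | cons p l ih =>
    rw [show join (p :: l) m = ((m.filter fun x => x.1 == p.2).map fun x => (p.1, x.2)) ++ join l m
      from List.flatMap_cons, cnt_append, ih]
    have h1 : cnt ((m.filter fun x => x.1 == p.2).map fun x => (p.1, x.2)) =
        Matrix.single p.1 p.2 1 * cnt m := by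
      clear ih
      induction m with
      | nil => simp [cnt]
      | cons x m ihm =>
        rcases eq_or_ne x.1 p.2 with h | h
        · simp [cnt, h, mul_add] at ihm ⊢
          exact ihm
        · simp [cnt, h, h.symm, mul_add, Matrix.single_mul_single_of_ne] at ihm ⊢
          exact ihm
    rw [h1]
    simp [cnt, add_mul]

theorem cnt_apply (l : List (Fin 6 × Fin 6)) (i j : Fin 6) :
    cnt l i j = if Nat.testBit (code l) (6 * i.val + j.val) then 1 else 0 := by
  induction l with
  | nil => simp [cnt, code]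
  | cons p l ih =>
    have e : cnt (p :: l) i j = Matrix.single p.1 p.2 (1 : ZMod 2) i j + cnt l i j := by simp [cnt]
    have hb : Nat.testBit (code (p :: l)) (6 * i.val + j.val) =
        ((decide (6 * p.1.val + p.2.val = 6 * i.val + j.val)) != Nat.testBit (code l) (6 * i.val + j.val)) := by
      show Nat.testBit (2 ^ (6 * p.1.val + p.2.val) ^^^ code l) _ = _
      rw [Nat.testBit_xor, Nat.testBit_two_pow]
    have hp : (p.1 = i ∧ p.2 = j) ↔ 6 * p.1.val + p.2.val = 6 * i.val + j.val := by
      rw [Fin.ext_iff, Fin.ext_iff]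
      have := p.2.isLt; have := j.isLt
      omega
    rw [e, ih, hb, Matrix.single_apply]
    by_cases h : p.1 = i ∧ p.2 = j
    · rw [if_pos h, decide_eq_true (hp.1 h)]
      cases Nat.testBit (code l) (6 * i.val + j.val) <;> decide
    · rw [if_neg h, decide_eq_false (fun h' => h (hp.2 h'))]
      cases Nat.testBit (code l) (6 * i.val + j.val) <;> decide

theorem cnt_eq_of_code {l m : List (Fin 6 × Fin 6)} (h : code l = code m) : cnt l = cnt m := by
  refine Matrix.ext fun i j => ?_
  rw [cnt_apply, cnt_apply, h]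

theorem ofEnt_eq_cnt : ∀ {l : List (Fin 6 × Fin 6)}, l.Nodup → ofEnt l = cnt l := by
  intro l hl
  induction l with
  | nil => ext i j; simp [ofEnt, cnt]
  | cons p l ih =>
    obtain ⟨hp, hl'⟩ := List.nodup_cons.1 hl
    ext i j
    have := congrFun (congrFun (ih hl') i) j
    rw [show cnt (p :: l) = Matrix.single p.1 p.2 1 + cnt l by simp [cnt], Matrix.add_apply, ← this,
      Matrix.single_apply]
    simp only [ofEnt, Matrix.of_apply, List.mem_cons]
    by_cases h : p.1 = i ∧ p.2 = j
    · obtain ⟨rfl, rfl⟩ := h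
      simp [hp]
    · have : (i, j) ≠ p := fun e => h ⟨by rw [← e], by rw [← e]⟩
      simp [h, this]

/-! ### The conjugation identity -/

/-- Left side of the conjugation identity, coefficient of `t ^ k`. -/
def lhsC (r : Fin 12) (b : I) : Fin 5 → M6 :=
  ![eM b,
    cM r 1 * eM b + eM b * cM r 1,
    cM r 2 * eM b + cM r 1 * eM b * cM r 1 + eM b * cM r 2,
    cM r 2 * eM b * cM r 1 + cM r 1 * eM b * cM r 2,
    cM r 2 * eM b * cM r 2]

/-- The lists of positions of `lhsC`. -/
def lhsL (r : Fin 12) (b : I) : Fin 5 → List (Fin 6 × Fin 6) :=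
  ![eL b,
    join (ent1 r) (eL b) ++ join (eL b) (ent1 r),
    join (ent2 r) (eL b) ++ join (join (ent1 r) (eL b)) (ent1 r) ++ join (eL b) (ent2 r),
    join (join (ent2 r) (eL b)) (ent1 r) ++ join (join (ent1 r) (eL b)) (ent2 r),
    join (join (ent2 r) (eL b)) (ent2 r)]

theorem nodup_ent : ∀ r : Fin 12, (ent1 r).Nodup ∧ (ent2 r).Nodup := by decide +kernel

theorem nodup_eL : ∀ b : I, (eL b).Nodup := by decide +kernel

theorem lhsC_eq (r : Fin 12) (b : I) (k : Fin 5) : lhsC r b k = cnt (lhsL r b k) := by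
  have e1 : cM r 1 = cnt (ent1 r) := ofEnt_eq_cnt (nodup_ent r).1
  have e2 : cM r 2 = cnt (ent2 r) := ofEnt_eq_cnt (nodup_ent r).2
  have e3 : eM b = cnt (eL b) := ofEnt_eq_cnt (nodup_eL b)
  fin_cases k <;> simp [lhsC, lhsL, e1, e2, e3, cnt_append, cnt_join, add_assoc]

theorem xP_deg : ∀ r : Fin 12, ∀ a b : I, ∀ km ∈ xP r a b, km.1 < 5 := by
  decide +kernel

/-- Coordinates `a` with odd coefficient of `t ^ k` in the entry `(a, b)` of `x_r(t)`. -/
def xT (r : Fin 12) (b : I) (k : Fin 5) : List I :=
  ((([[[[.inl 0], [], [], [], []],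
      [[.inl 1], [.inr 0], [], [], []],
      [[.inr 0], [], [], [], []],
      [[.inr 1], [], [], [], []],
      [[.inr 2], [], [], [], []],
      [[.inr 3], [], [], [], []],
      [[.inr 4], [], [], [], []],
      [[.inr 5], [], [], [], []],
      [[.inr 6], [.inr 1], [], [], []],
      [[.inr 7], [], [], [], []],
      [[.inr 8], [.inr 2], [], [], []],
      [[.inr 9], [.inr 3], [], [], []],
      [[.inr 10], [.inr 5], [], [], []],
      [[.inr 11], [.inl 0], [.inr 0], [], []]],
    [[[.inl 0], [.inr 1], [], [], []],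
      [[.inl 1], [.inr 1], [], [], []],
      [[.inr 0], [], [], [], []],
      [[.inr 1], [], [], [], []],
      [[.inr 2], [], [], [], []],
      [[.inr 3], [], [], [], []],
      [[.inr 4], [], [], [], []],
      [[.inr 5], [.inr 0], [], [], []],
      [[.inr 6], [], [], [], []],
      [[.inr 7], [.inr 2], [], [], []],
      [[.inr 8], [], [], [], []],
      [[.inr 9], [.inr 4], [], [], []],
      [[.inr 10], [.inl 0, .inl 1], [.inr 1], [], []],
      [[.inr 11], [.inr 6], [], [], []]],
    [[[.inl 0], [.inr 2], [], [], []],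
      [[.inl 1], [], [], [], []],
      [[.inr 0], [], [], [], []],
      [[.inr 1], [], [], [], []],
      [[.inr 2], [], [], [], []],
      [[.inr 3], [.inr 0], [], [], []],
      [[.inr 4], [.inr 1], [], [], []],
      [[.inr 5], [], [], [], []],
      [[.inr 6], [], [], [], []],
      [[.inr 7], [], [.inr 0], [], []],
      [[.inr 8], [], [.inr 1], [], []],
      [[.inr 9], [.inl 1], [.inr 2], [], []],
      [[.inr 10], [.inr 7], [.inr 3], [.inr 0], []],
      [[.inr 11], [.inr 8], [.inr 4], [.inr 1], []]],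
    [[[.inl 0], [.inr 3], [], [], []],
      [[.inl 1], [.inr 3], [], [], []],
      [[.inr 0], [], [], [], []],
      [[.inr 1], [], [], [], []],
      [[.inr 2], [.inr 0], [], [], []],
      [[.inr 3], [], [], [], []],
      [[.inr 4], [], [.inr 0], [], []],
      [[.inr 5], [], [], [], []],
      [[.inr 6], [.inr 4], [.inr 2], [.inr 0], []],
      [[.inr 7], [.inr 5], [], [], []],
      [[.inr 8], [.inl 0, .inl 1], [.inr 3], [], []],
      [[.inr 9], [], [.inr 5], [], []],
      [[.inr 10], [], [], [], []],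
      [[.inr 11], [.inr 9], [.inr 7], [.inr 5], []]],
    [[[.inl 0], [], [], [], []],
      [[.inl 1], [.inr 4], [], [], []],
      [[.inr 0], [], [], [], []],
      [[.inr 1], [], [], [], []],
      [[.inr 2], [.inr 1], [], [], []],
      [[.inr 3], [], [.inr 1], [], []],
      [[.inr 4], [], [], [], []],
      [[.inr 5], [.inr 3], [.inr 2], [.inr 1], []],
      [[.inr 6], [], [], [], []],
      [[.inr 7], [.inl 0], [.inr 4], [], []],
      [[.inr 8], [.inr 6], [], [], []],
      [[.inr 9], [], [.inr 6], [], []],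
      [[.inr 10], [.inr 9], [.inr 8], [.inr 6], []],
      [[.inr 11], [], [], [], []]],
    [[[.inl 0], [.inr 5], [], [], []],
      [[.inl 1], [], [], [], []],
      [[.inr 0], [], [], [], []],
      [[.inr 1], [.inr 0], [], [], []],
      [[.inr 2], [], [], [], []],
      [[.inr 3], [], [], [], []],
      [[.inr 4], [.inr 3], [], [], []],
      [[.inr 5], [], [], [], []],
      [[.inr 6], [.inl 1], [.inr 5], [], []],
      [[.inr 7], [], [], [], []],
      [[.inr 8], [.inr 7], [], [], []],
      [[.inr 9], [], [], [], []],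
      [[.inr 10], [], [], [], []],
      [[.inr 11], [.inr 10], [], [], []]],
    [[[.inl 0], [.inr 6], [], [], []],
      [[.inl 1], [], [], [], []],
      [[.inr 0], [.inr 1], [], [], []],
      [[.inr 1], [], [], [], []],
      [[.inr 2], [], [], [], []],
      [[.inr 3], [.inr 4], [], [], []],
      [[.inr 4], [], [], [], []],
      [[.inr 5], [.inl 1], [.inr 6], [], []],
      [[.inr 6], [], [], [], []],
      [[.inr 7], [.inr 8], [], [], []],
      [[.inr 8], [], [], [], []],
      [[.inr 9], [], [], [], []],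
      [[.inr 10], [.inr 11], [], [], []],
      [[.inr 11], [], [], [], []]],
    [[[.inl 0], [], [], [], []],
      [[.inl 1], [.inr 7], [], [], []],
      [[.inr 0], [], [], [], []],
      [[.inr 1], [.inr 2], [.inr 3], [.inr 5], []],
      [[.inr 2], [], [.inr 5], [], []],
      [[.inr 3], [.inr 5], [], [], []],
      [[.inr 4], [.inl 0], [.inr 7], [], []],
      [[.inr 5], [], [], [], []],
      [[.inr 6], [.inr 8], [.inr 9], [.inr 10], []],
      [[.inr 7], [], [], [], []],
      [[.inr 8], [], [.inr 10], [], []],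
      [[.inr 9], [.inr 10], [], [], []],
      [[.inr 10], [], [], [], []],
      [[.inr 11], [], [], [], []]],
    [[[.inl 0], [.inr 8], [], [], []],
      [[.inl 1], [.inr 8], [], [], []],
      [[.inr 0], [.inr 2], [.inr 4], [.inr 6], []],
      [[.inr 1], [], [], [], []],
      [[.inr 2], [], [.inr 6], [], []],
      [[.inr 3], [.inl 0, .inl 1], [.inr 8], [], []],
      [[.inr 4], [.inr 6], [], [], []],
      [[.inr 5], [.inr 7], [.inr 9], [.inr 11], []],
      [[.inr 6], [], [], [], []],
      [[.inr 7], [], [.inr 11], [], []],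
      [[.inr 8], [], [], [], []],
      [[.inr 9], [.inr 11], [], [], []],
      [[.inr 10], [], [], [], []],
      [[.inr 11], [], [], [], []]],
    [[[.inl 0], [.inr 9], [], [], []],
      [[.inl 1], [], [], [], []],
      [[.inr 0], [.inr 3], [.inr 7], [.inr 10], []],
      [[.inr 1], [.inr 4], [.inr 8], [.inr 11], []],
      [[.inr 2], [.inl 1], [.inr 9], [], []],
      [[.inr 3], [], [.inr 10], [], []],
      [[.inr 4], [], [.inr 11], [], []],
      [[.inr 5], [], [], [], []],
      [[.inr 6], [], [], [], []],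
      [[.inr 7], [.inr 10], [], [], []],
      [[.inr 8], [.inr 11], [], [], []],
      [[.inr 9], [], [], [], []],
      [[.inr 10], [], [], [], []],
      [[.inr 11], [], [], [], []]],
    [[[.inl 0], [.inr 10], [], [], []],
      [[.inl 1], [.inr 10], [], [], []],
      [[.inr 0], [.inr 5], [], [], []],
      [[.inr 1], [.inl 0, .inl 1], [.inr 10], [], []],
      [[.inr 2], [.inr 7], [], [], []],
      [[.inr 3], [], [], [], []],
      [[.inr 4], [.inr 9], [], [], []],
      [[.inr 5], [], [], [], []],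
      [[.inr 6], [.inr 11], [], [], []],
      [[.inr 7], [], [], [], []],
      [[.inr 8], [], [], [], []],
      [[.inr 9], [], [], [], []],
      [[.inr 10], [], [], [], []],
      [[.inr 11], [], [], [], []]],
    [[[.inl 0], [], [], [], []],
      [[.inl 1], [.inr 11], [], [], []],
      [[.inr 0], [.inl 0], [.inr 11], [], []],
      [[.inr 1], [.inr 6], [], [], []],
      [[.inr 2], [.inr 8], [], [], []],
      [[.inr 3], [.inr 9], [], [], []],
      [[.inr 4], [], [], [], []],
      [[.inr 5], [.inr 10], [], [], []],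
      [[.inr 6], [], [], [], []],
      [[.inr 7], [], [], [], []],
      [[.inr 8], [], [], [], []],
      [[.inr 9], [], [], [], []],
      [[.inr 10], [], [], [], []],
      [[.inr 11], [], [], [], []]]] : List (List (List (List I)))).getD r.val []).getD (idxI b) []).getD k.val []

theorem coeff_table : ∀ r : Fin 12, ∀ a b : I, ∀ k : Fin 5,
    (coeffP (xP r a b) k : ZMod 2) = ((xT r b k).count a : ZMod 2) := by
  decide +kernel

theorem code_table : ∀ r : Fin 12, ∀ b : I, ∀ k : Fin 5,
    code (lhsL r b k) = code ((xT r b k).flatMap eL) := by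
  decide +kernel

theorem conj_table (r : Fin 12) (b : I) (k : Fin 5) : lhsC r b k = ((xT r b k).map eM).sum := by
  rw [lhsC_eq, cnt_eq_of_code (code_table r b k)]
  induction xT r b k with
  | nil => simp [cnt]
  | cons a l ih =>
    rw [List.flatMap_cons, cnt_append, ih, List.map_cons, List.sum_cons, eM,
      ofEnt_eq_cnt (nodup_eL a)]

end Cfsg.Agent.H66.G2Two
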